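import Cfsg.Agent.Modules.Thompson
import Cfsg.Agent.Cores.Basic
import Cfsg.Agent.LAE62.SylowBasics
import Cfsg.Prelude.Def_BaumannBlocks

/-!
The Baumann subgroup is weakly closed; subgroups normalized by a block and the Baumann subgroup normalize the block.
-/

set_option autoImplicit false

open Subgroup
open scoped commutatorElement Pointwise

namespace Cfsg.Agent.LAE62.Baumann

variable {G : Type*} [Group G] {p : ℕ}

theorem map_omegaOne {H : Type*} [Group H] {f : G →* H} (hf : Function.Injective f) (X : Subgroup G) :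
    (Cfsg.omegaOne p X).map f = Cfsg.omegaOne p (X.map f) := by
  rw [Cfsg.omegaOne, Cfsg.omegaOne, MonoidHom.map_closure]
  congr 1
  ext y
  constructor
  · rintro ⟨x, ⟨hx, hp⟩, rfl⟩
    exact ⟨⟨x, hx, rfl⟩, by rw [← map_pow, hp, map_one]⟩
  · rintro ⟨⟨x, hx, rfl⟩, hp⟩
    exact ⟨x, ⟨hx, hf (by rw [map_pow, hp, map_one])⟩, rfl⟩

theorem map_baumannSubgroupOf {H : Type*} [Group H] {f : G →* H} (hf : Function.Injective f) (T : Subgroup G) :
    (Cfsg.baumannSubgroupOf p T).map f = Cfsg.baumannSubgroupOf p (T.map f) := by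
  rw [Cfsg.baumannSubgroupOf, Cfsg.baumannSubgroupOf, Modules.map_inf_centralizer hf, map_omegaOne hf,
    Modules.map_centerThompsonOf hf]

theorem baumann_le (T : Subgroup G) : Cfsg.baumannSubgroupOf p T ≤ T := inf_le_left

theorem omegaOne_le' (X : Subgroup G) : Cfsg.omegaOne p X ≤ X := (closure_le _).2 fun _ h => h.1

theorem thompson_le_baumann (T : Subgroup G) : Cfsg.thompsonSubgroupOf p T ≤ Cfsg.baumannSubgroupOf p T :=
  le_inf (Modules.thompsonSubgroupOf_le p T)
    (le_centralizer_iff.1 ((omegaOne_le' _).trans inf_le_right))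

/-- The Baumann subgroup of a Sylow subgroup is weakly closed. -/
theorem baumann_eq_of_le [Finite G] [Fact p.Prime] (T T' : Sylow p G)
    (h : Cfsg.baumannSubgroupOf p (T : Subgroup G) ≤ T') :
    Cfsg.baumannSubgroupOf p (T' : Subgroup G) = Cfsg.baumannSubgroupOf p (T : Subgroup G) := by
  obtain ⟨g, hg⟩ := MulAction.exists_smul_eq G T T'
  have hT' : (T' : Subgroup G) = (T : Subgroup G).map (MulAut.conj g).toMonoidHom := by
    rw [← hg, Sylow.coe_subgroup_smul]; rfl
  have hinj : Function.Injective (MulAut.conj g).toMonoidHom := (MulAut.conj g).injective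
  have hJ : Cfsg.thompsonSubgroupOf p (T : Subgroup G) ≤ Cfsg.thompsonSubgroupOf p (T' : Subgroup G) := by
    rw [Modules.thompsonSubgroupOf_eq_sSup]
    refine sSup_le fun A hA => Modules.le_thompsonSubgroupOf ⟨?_, hA.2.1, fun B hB hBe => ?_⟩
    · exact ((Modules.le_thompsonSubgroupOf hA).trans (thompson_le_baumann _)).trans h
    · have := hA.2.2 (B.map (MulAut.conj g⁻¹).toMonoidHom) (fun x hx => by
        obtain ⟨y, hy, rfl⟩ := hx
        obtain ⟨z, hz, rfl⟩ := hT'.le (hB hy)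
        show g⁻¹ * (g * z * g⁻¹) * (g⁻¹)⁻¹ ∈ T
        simpa [mul_assoc] using hz) (Modules.elemAb_map _ hBe)
      rwa [card_map_of_injective (MulAut.conj g⁻¹).injective] at this
  have hJeq : (Cfsg.thompsonSubgroupOf p (T : Subgroup G)).map (MulAut.conj g).toMonoidHom =
      Cfsg.thompsonSubgroupOf p (T : Subgroup G) := by
    have h1 : (Cfsg.thompsonSubgroupOf p (T : Subgroup G)).map (MulAut.conj g).toMonoidHom =
        Cfsg.thompsonSubgroupOf p (T' : Subgroup G) := by rw [hT', Modules.map_thompsonSubgroupOf hinj]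
    rw [h1]
    refine (eq_of_le_of_card_ge hJ ?_).symm
    rw [← h1, card_map_of_injective hinj]
  have hΩ : (Cfsg.omegaOne p (Cfsg.centerThompsonOf p (T : Subgroup G))).map (MulAut.conj g).toMonoidHom =
      Cfsg.omegaOne p (Cfsg.centerThompsonOf p (T : Subgroup G)) := by
    rw [map_omegaOne hinj, Cfsg.centerThompsonOf, Modules.map_inf_centralizer hinj, hJeq]
  have hJ' : Cfsg.thompsonSubgroupOf p (T' : Subgroup G) = Cfsg.thompsonSubgroupOf p (T : Subgroup G) := by
    rw [hT', ← Modules.map_thompsonSubgroupOf hinj, hJeq]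
  refine (eq_of_le_of_card_ge ?_ ?_).symm
  · refine le_inf h (inf_le_right.trans (le_of_eq ?_))
    rw [Cfsg.centerThompsonOf, Cfsg.centerThompsonOf, hJ']
  · rw [hT', ← map_baumannSubgroupOf hinj, card_map_of_injective hinj]

/-- The normal subgroup of elements acting trivially modulo a subgroup. -/
theorem le_of_commutator_eq {E B N : Subgroup G} (hEB : ⁅E, B⁆ = E) (hBN : B ≤ N)
    (hN : ∀ e ∈ E, ∀ n ∈ N, e * n * e⁻¹ ∈ N) : E ≤ N := by
  rw [← hEB]
  refine commutator_le.2 fun e he b hb => ?_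
  rw [commutatorElement_def]
  exact N.mul_mem (hN e he b (hBN hb)) (N.inv_mem (hBN hb))

/-- A `p`-element-free generated subgroup is the target of the commutator argument. -/
theorem pElementsFree_mem {E Q : Subgroup G} [Finite G] [hp : Fact p.Prime] (hQ : IsPGroup p Q)
    (hQE : Q ≤ normalizer (E : Set G)) {y : G} (hy : y ∈ Q ⊔ E) (hcop : (orderOf y).Coprime p) : y ∈ E := by
  have hle : Q ⊔ E ≤ normalizer (E : Set G) := sup_le hQE le_normalizer
  haveI : (E.subgroupOf (Q ⊔ E)).Normal := normal_subgroupOf_of_le_normalizer hle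
  let π := QuotientGroup.mk' (E.subgroupOf (Q ⊔ E))
  have hp' : IsPGroup p ((Q ⊔ E : Subgroup G) ⧸ E.subgroupOf (Q ⊔ E)) := by
    refine hQ.of_surjective (π.comp (inclusion (le_sup_left : Q ≤ Q ⊔ E))) fun q => ?_
    obtain ⟨⟨w, hw⟩, rfl⟩ := QuotientGroup.mk'_surjective _ q
    have hw' : w ∈ (Q : Set G) * (E : Set G) := by
      rw [← coe_mul_of_left_le_normalizer_right Q E hQE]; exact hw
    obtain ⟨a, ha, e, he, rfl⟩ := hw'
    refine ⟨⟨a, ha⟩, ?_⟩
    show π _ = π _
    refine (QuotientGroup.eq).2 ?_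
    show a⁻¹ * (a * e) ∈ E
    rwa [inv_mul_cancel_left]
  obtain ⟨k, hk⟩ := hp' (π ⟨y, hy⟩)
  have hone : orderOf (π ⟨y, hy⟩) = 1 := by
    refine Nat.eq_one_of_dvd_coprimes (hcop.pow_right k) ?_ (orderOf_dvd_of_pow_eq_one hk)
    have h1 := orderOf_map_dvd π (⟨y, hy⟩ : (Q ⊔ E : Subgroup G))
    rwa [orderOf_mk] at h1
  exact (QuotientGroup.eq_one_iff (⟨y, hy⟩ : ↥(Q ⊔ E))).1 (orderOf_eq_one_iff.1 hone)

theorem pResidualOf_le [Finite G] {E X : Subgroup G} (h : ∀ y ∈ E, (orderOf y).Coprime p → y ∈ X) :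
    Cfsg.pResidualOf p E ≤ X := by
  rw [Cfsg.pResidualOf, map_le_iff_le_comap]
  refine (closure_le _).2 fun y hy => h _ y.2 ?_
  show (orderOf (y : G)).Coprime p
  rw [orderOf_coe]; exact hy

theorem mem_pResidualOf {E : Subgroup G} {y : G} (hy : y ∈ E) (hcop : (orderOf y).Coprime p) :
    y ∈ Cfsg.pResidualOf p E :=
  ⟨⟨y, hy⟩, subset_closure (by show (orderOf (⟨y, hy⟩ : E)).Coprime p; rwa [orderOf_mk]), rfl⟩

/-- A `p`-subgroup normalized by a block and by the Baumann subgroup normalizes the block. -/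
theorem le_normalizer_block [Finite G] [Fact p.Prime] (T : Sylow p G) {E : Subgroup G}
    (hres : Cfsg.pResidualOf p E = E) (hEB : ⁅E, Cfsg.baumannSubgroupOf p (T : Subgroup G)⁆ = E)
    {Q : Subgroup G} (hQ : IsPGroup p Q)
    (hBQ : Cfsg.baumannSubgroupOf p (T : Subgroup G) ≤ normalizer (Q : Set G))
    (hEQ : E ≤ normalizer (Q : Set G)) : Q ≤ normalizer (E : Set G) := by
  set B := Cfsg.baumannSubgroupOf p (T : Subgroup G) with hB
  have hBp : IsPGroup p B := T.2.to_le (baumann_le _)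
  have hBE : B ≤ normalizer (E : Set G) := by
    have h : B ≤ normalizer ((⁅E, B⁆ : Subgroup G) : Set G) := normalizer_commutator_ge_right E B
    rwa [hEB] at h
  -- `Q` normalizes the Baumann subgroup
  have hQB : Q ≤ normalizer (B : Set G) := by
    obtain ⟨T', hT'⟩ := (IsPGroup.to_sup_of_normal_left' hQ hBp hBQ).exists_le_sylow
    intro q hq
    have hqT : q ∈ (T' : Subgroup G) := hT' (mem_sup_left hq)
    have hB' := baumann_eq_of_le T T' (le_sup_right.trans hT')
    refine mem_normalizer_iff_map_conj_eq.2 ?_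
    show B.map (MulAut.conj q).toMonoidHom = B
    conv_lhs => rw [hB, ← hB']
    have hT := mem_normalizer_iff_map_conj_eq.1 (le_normalizer hqT)
    rw [map_baumannSubgroupOf (f := (MulAut.conj q).toMonoidHom) (MulAut.conj q).injective]
    conv_lhs => rw [show (T' : Subgroup G).map (MulAut.conj q).toMonoidHom = T' from hT, hB']
  set Q5 := Q ⊓ normalizer (E : Set G) with hQ5
  by_contra hne
  -- the elements normalizing both
  have hQ5E : E ≤ normalizer (Q5 : Set G) :=
    (le_inf hEQ (le_normalizer.trans le_normalizer)).trans (normalizer_inf' _ _)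
  have hQ5B : B ≤ normalizer (Q5 : Set G) :=
    (le_inf hBQ (hBE.trans le_normalizer)).trans (normalizer_inf' _ _)
  set X := Q ⊓ normalizer (Q5 : Set G) with hX
  have hXE : E ≤ normalizer (X : Set G) :=
    (le_inf hEQ (hQ5E.trans le_normalizer)).trans (normalizer_inf' _ _)
  have hXB : B ≤ normalizer (X : Set G) :=
    (le_inf hBQ (hQ5B.trans le_normalizer)).trans (normalizer_inf' _ _)
  let C : Subgroup G :=
    { carrier := {g | g ∈ (normalizer (X : Set G) : Subgroup G) ∧ g ∈ (normalizer (Q5 : Set G) : Subgroup G) ∧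
        ∀ x ∈ X, ⁅g, x⁆ ∈ Q5}
      one_mem' := ⟨one_mem _, one_mem _, fun x _ => by rw [commutatorElement_one_left]; exact one_mem _⟩
      mul_mem' := by
        rintro a b ⟨ha1, ha2, ha3⟩ ⟨hb1, hb2, hb3⟩
        refine ⟨mul_mem ha1 hb1, mul_mem ha2 hb2, fun x hx => ?_⟩
        rw [show ⁅a * b, x⁆ = a * ⁅b, x⁆ * a⁻¹ * ⁅a, x⁆ by simp only [commutatorElement_def]; group]
        exact mul_mem ((mem_normalizer_iff.1 ha2 _).1 (hb3 x hx)) (ha3 x hx)
      inv_mem' := by
        rintro a ⟨ha1, ha2, ha3⟩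
        refine ⟨inv_mem ha1, inv_mem ha2, fun x hx => ?_⟩
        rw [show ⁅a⁻¹, x⁆ = a⁻¹ * ⁅a, x⁆⁻¹ * a by simp only [commutatorElement_def]; group]
        exact (mem_normalizer_iff''.1 ha2 _).1 (inv_mem (ha3 x hx)) }
  have hBC : B ≤ C := fun b hb => ⟨hXB hb, hQ5B hb, fun x hx => by
    have hxQ : x ∈ Q := hx.1
    refine ⟨?_, hBE ?_⟩
    · rw [commutatorElement_def]
      exact Q.mul_mem ((mem_normalizer_iff.1 (hBQ hb) x).1 hxQ) (Q.inv_mem hxQ)
    · rw [commutatorElement_def, show b * x * b⁻¹ * x⁻¹ = b * (x * b⁻¹ * x⁻¹) by group]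
      exact B.mul_mem hb ((mem_normalizer_iff.1 (hQB hxQ) _).1 (B.inv_mem hb))⟩
  have hEC : E ≤ C := le_of_commutator_eq hEB hBC fun e he c hc => by
    refine ⟨mul_mem (mul_mem (hXE he) hc.1) (inv_mem (hXE he)),
      mul_mem (mul_mem (hQ5E he) hc.2.1) (inv_mem (hQ5E he)), fun x hx => ?_⟩
    rw [show ⁅e * c * e⁻¹, x⁆ = e * ⁅c, e⁻¹ * x * e⁆ * e⁻¹ by simp only [commutatorElement_def]; group]
    exact (mem_normalizer_iff.1 (hQ5E he) _).1 (hc.2.2 _ ((mem_normalizer_iff''.1 (hXE he) x).1 hx))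
  have hXN : X ≤ normalizer (E : Set G) := by
    intro x hx
    refine mem_normalizer_of_conj_mem fun e he => ?_
    have : E ≤ E.comap (MulAut.conj x).toMonoidHom := by
      conv_lhs => rw [← hres]
      refine pResidualOf_le fun y hy hyc => ?_
      show x * y * x⁻¹ ∈ E
      refine pElementsFree_mem (hQ.to_le inf_le_left) (inf_le_right : Q5 ≤ normalizer (E : Set G)) ?_ ?_
      · rw [show x * y * x⁻¹ = ⁅y, x⁆⁻¹ * y by simp only [commutatorElement_def]; group]
        exact mul_mem (inv_mem (mem_sup_left ((hEC hy).2.2 x hx))) (mem_sup_right hy)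
      · rw [← MulAut.conj_apply, MulEquiv.orderOf_eq]; exact hyc
    exact this he
  -- normalizers grow
  have hlt : Q5 < Q := lt_of_le_of_ne inf_le_left fun e => hne (e ▸ (inf_le_right : Q5 ≤ normalizer (E : Set G)))
  haveI := hQ.isNilpotent
  have hgrow := Group.normalizerCondition_of_isNilpotent (Q5.subgroupOf Q)
    (lt_of_le_of_ne le_top fun e => hlt.not_ge (subgroupOf_eq_top.1 e))
  obtain ⟨x, hx, hxn⟩ := SetLike.exists_of_lt hgrow
  refine hxn ?_
  have hxX : (x : G) ∈ X := ⟨x.2, mem_normalizer_of_conj_mem fun y hy =>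
    ((mem_normalizer_iff.1 hx ⟨y, (inf_le_left : Q5 ≤ Q) hy⟩).1 hy)⟩
  exact ⟨x.2, hXN hxX⟩
where
  normalizer_inf' (X Y : Subgroup G) :
      normalizer (X : Set G) ⊓ normalizer (Y : Set G) ≤ normalizer ((X ⊓ Y : Subgroup G) : Set G) := fun g hg => by
    rw [mem_normalizer_iff]
    intro n
    exact and_congr (mem_normalizer_iff.1 hg.1 n) (mem_normalizer_iff.1 hg.2 n)

end Cfsg.Agent.LAE62.Baumann
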