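import Cfsg.Agent.LAE62.BaumannBasic
import Cfsg.Agent.LAE62.NaturalModule
import Mathlib.GroupTheory.SpecificGroups.Alternating

/-!
Irreducibility of the modules of blocks: natural modules of derived `SL(2, q)` and even-weight modules of alternating groups.
-/

set_option autoImplicit false

open Subgroup Matrix
open scoped commutatorElement

namespace Cfsg.Agent.LAE62.BlockModules

theorem sl2_commutator_irreducible {F : Type*} [Field F] (V : AddSubgroup (Fin 2 → F))
    (hV : ∀ g ∈ commutator (Matrix.SpecialLinearGroup (Fin 2) F), ∀ v ∈ V,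
      (g : Matrix (Fin 2) (Fin 2) F).mulVec v ∈ V)
    {v : Fin 2 → F} (hv : v ∈ V) (hv0 : v ≠ 0) (w : Fin 2 → F) : w ∈ V := by
  have hmem : ∀ g h : Matrix.SpecialLinearGroup (Fin 2) F,
      ⁅g, h⁆ ∈ commutator (Matrix.SpecialLinearGroup (Fin 2) F) := fun g h =>
    commutator_mem_commutator (mem_top g) (mem_top h)
  have hv' : v 0 ≠ 0 ∨ v 1 ≠ 0 := by
    by_contra h
    push Not at h
    exact hv0 (funext fun i => by fin_cases i <;> simp [h.1, h.2])
  by_cases hbig : ∃ a : F, a ≠ 0 ∧ a * a ≠ 1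
  · obtain ⟨a, ha, ha1⟩ := hbig
    have hup : ∀ y : F, upU y ∈ commutator (Matrix.SpecialLinearGroup (Fin 2) F) := fun y => by
      have h := hmem (hU a) (upU (y / (a * a - 1)))
      have hz : (hU a : Matrix (Fin 2) (Fin 2) F) 1 0 = 0 := by rw [hU_coe ha]; simp
      have h00 : (hU a : Matrix (Fin 2) (Fin 2) F) 0 0 = a := by rw [hU_coe ha]; simp
      rw [commutatorElement_def, conj_upU_of_zero hz, upU_inv, ← upU_add, h00] at h
      have hd : a * a - 1 ≠ 0 := sub_ne_zero.2 ha1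
      rwa [show a * a * (y / (a * a - 1)) + -(y / (a * a - 1)) = (a * a - 1) * (y / (a * a - 1)) by ring,
        mul_div_cancel₀ _ hd] at h
    have hlo : ∀ y : F, loU y ∈ commutator (Matrix.SpecialLinearGroup (Fin 2) F) := fun y => by
      have hd : a⁻¹ * a⁻¹ - 1 ≠ 0 := fun h => ha1 (by
        field_simp at h
        linear_combination -h)
      have hcomm : ∀ z : F, ⁅hU a, loU z⁆ = loU ((a⁻¹ * a⁻¹ - 1) * z) := fun z => by
        apply Subtype.ext
        simp only [commutatorElement_def, Matrix.SpecialLinearGroup.coe_mul, Matrix.SpecialLinearGroup.coe_inv,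
          hU_coe ha, loU_coe, Matrix.adjugate_fin_two]
        ext i j
        fin_cases i <;> fin_cases j <;> simp [Matrix.mul_apply, Fin.sum_univ_two] <;> field_simp <;> ring
      have h := hmem (hU a) (loU (y / (a⁻¹ * a⁻¹ - 1)))
      rwa [hcomm, mul_div_cancel₀ _ hd] at h
    have hu : ∀ u ∈ V, ∀ y : F, ![y * u 1, 0] ∈ V ∧ ![0, y * u 0] ∈ V := fun u hu y => by
      constructor
      · convert V.sub_mem (hV _ (hup y) u hu) hu using 1
        ext i; fin_cases i <;> simp [upU_coe, Matrix.mulVec, dotProduct, Fin.sum_univ_two]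
      · convert V.sub_mem (hV _ (hlo y) u hu) hu using 1
        ext i; fin_cases i <;> simp [loU_coe, Matrix.mulVec, dotProduct, Fin.sum_univ_two]
    have key : ∀ s : F, ![s, 0] ∈ V ∧ ![0, s] ∈ V := by
      rcases hv' with h | h
      · have h1 : ∀ s : F, ![0, s] ∈ V := fun s => by simpa [h] using (hu v hv (s / v 0)).2
        exact fun s => ⟨by simpa using (hu _ (h1 1) s).1, h1 s⟩
      · have h1 : ∀ s : F, ![s, 0] ∈ V := fun s => by simpa [h] using (hu v hv (s / v 1)).1
        exact fun s => ⟨h1 s, by simpa using (hu _ (h1 1) s).2⟩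
    convert V.add_mem (key (w 0)).1 (key (w 1)).2 using 1
    ext i; fin_cases i <;> simp
  · push Not at hbig
    have hsmall : ∀ s : F, s = 0 ∨ s = 1 ∨ s = -1 := fun s => by
      by_cases hs : s = 0
      · exact .inl hs
      · rcases mul_self_eq_one_iff.1 (hbig s hs) with h | h
        · exact .inr (.inl h)
        · exact .inr (.inr h)
    have hsc : ∀ (s : F), ∀ u ∈ V, s • u ∈ V := fun s u hu => by
      rcases hsmall s with rfl | rfl | rfl
      · simp
      · simpa using hu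
      · simpa using hu
    have hc : ((⁅upU (1 : F), loU (1 : F)⁆ : Matrix.SpecialLinearGroup (Fin 2) F) : Matrix (Fin 2) (Fin 2) F) =
        !![3, -1; 1, 0] := by
      simp only [commutatorElement_def, Matrix.SpecialLinearGroup.coe_mul, Matrix.SpecialLinearGroup.coe_inv,
        upU_coe, loU_coe, Matrix.adjugate_fin_two]
      ext i j
      fin_cases i <;> fin_cases j <;> simp [Matrix.mul_apply, Fin.sum_univ_two] <;> ring
    have hcv := hV _ (hmem (upU (1 : F)) (loU (1 : F))) v hv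
    rw [hc] at hcv
    have hcv' : (![3 * v 0 - v 1, v 0] : Fin 2 → F) ∈ V := by
      convert hcv using 1
      ext i; fin_cases i <;> simp [Matrix.mulVec, dotProduct, Fin.sum_univ_two, sub_eq_add_neg]
    have h5 : (5 : F) ≠ 0 := fun h => by
      rcases hsmall 2 with h2 | h2 | h2
      · exact one_ne_zero (show (1 : F) = 0 by linear_combination h - 2 * h2)
      · exact one_ne_zero (show (1 : F) = 0 by linear_combination h2)
      · exact one_ne_zero (show (1 : F) = 0 by linear_combination 2 * h2 - h + 0 * h2 + (0 : F) * h)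
    set D := v 0 * v 0 - v 1 * (3 * v 0 - v 1) with hDdef
    have hD : D ≠ 0 := by
      rw [hDdef]
      rcases hsmall (v 0) with h0 | h0 | h0 <;> rcases hsmall (v 1) with h1 | h1 | h1 <;>
        rw [h0, h1] <;> ring_nf <;> first
          | exact one_ne_zero | exact neg_ne_zero.2 one_ne_zero | exact h5 | (exfalso; simp_all)
    set d := (3 * v 0 - v 1) with hd
    convert V.add_mem (hsc ((w 0 * v 0 - w 1 * d) / D) v hv) (hsc ((v 0 * w 1 - v 1 * w 0) / D) _ hcv') using 1
    ext i; fin_cases i <;> simp <;> field_simp <;> rw [hDdef] <;> ring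

theorem alternating_even_irreducible {n : ℕ} (hn : Odd n) (V : AddSubgroup (Fin n → ZMod 2))
    (heven : ∀ v ∈ V, ∑ i, v i = 0)
    (hV : ∀ σ ∈ alternatingGroup (Fin n), ∀ v ∈ V, (fun i => v (σ⁻¹ i)) ∈ V)
    {v : Fin n → ZMod 2} (hv : v ∈ V) (hv0 : v ≠ 0) (w : Fin n → ZMod 2) (hw : ∑ i, w i = 0) : w ∈ V := by
  classical
  have h01 : ∀ x : ZMod 2, x = 0 ∨ x = 1 := by decide
  obtain ⟨i, hi⟩ : ∃ i, v i ≠ 0 := by
    by_contra h
    push Not at h
    exact hv0 (funext h)
  have hi : v i = 1 := (h01 _).resolve_left hi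
  obtain ⟨j, hj⟩ : ∃ j, v j ≠ 1 := by
    by_contra h
    push Not at h
    have := heven v hv
    simp only [h, Finset.sum_const, Finset.card_univ, Fintype.card_fin, nsmul_eq_mul, mul_one,
      ZMod.natCast_eq_zero_iff_even] at this
    exact (Nat.not_even_iff_odd.2 hn) this
  have hj : v j = 0 := (h01 _).resolve_right hj
  have hij : i ≠ j := fun h => by rw [h, hj] at hi; exact zero_ne_one hi
  obtain ⟨k, hk⟩ : ∃ k, k ∉ ({i, j} : Finset (Fin n)) := by
    by_contra h
    push Not at h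
    have h2 : (Finset.univ : Finset (Fin n)).card ≤ 2 :=
      (Finset.card_le_card fun x _ => h x).trans Finset.card_le_two
    rw [Finset.card_univ, Fintype.card_fin] at h2
    have := i.2; have := j.2; have : (i : ℕ) ≠ j := fun h => hij (Fin.ext h)
    obtain ⟨r, rfl⟩ := hn
    omega
  simp only [Finset.mem_insert, Finset.mem_singleton, not_or] at hk
  have hcyc : ∀ a b c : Fin n, a ≠ b → a ≠ c →
      Equiv.swap a c * Equiv.swap a b ∈ alternatingGroup (Fin n) := fun a b c h h' => by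
    rw [Equiv.Perm.mem_alternatingGroup, map_mul, Equiv.Perm.sign_swap h, Equiv.Perm.sign_swap h']
    rfl
  have hinv : ∀ a b c x : Fin n, a ≠ b → a ≠ c → b ≠ c →
      (Equiv.swap a c * Equiv.swap a b)⁻¹ x = if x = a then c else if x = b then a else if x = c then b else x := by
    intro a b c x h1 h2 h3
    rw [_root_.mul_inv_rev, Equiv.swap_inv, Equiv.swap_inv, Equiv.Perm.mul_apply]
    split_ifs with ha hb hc
    · subst ha; rw [Equiv.swap_apply_left, Equiv.swap_apply_of_ne_of_ne (Ne.symm h2) (Ne.symm h3)]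
    · subst hb; rw [Equiv.swap_apply_of_ne_of_ne (Ne.symm h1) h3, Equiv.swap_apply_right]
    · subst hc; rw [Equiv.swap_apply_right, Equiv.swap_apply_left]
    · rw [Equiv.swap_apply_of_ne_of_ne ha hc, Equiv.swap_apply_of_ne_of_ne ha hb]
  let e : Fin n → Fin n → (Fin n → ZMod 2) := fun a b => Pi.single a 1 + Pi.single b 1
  have two : (1 : ZMod 2) + 1 = 0 := CharTwo.add_self_eq_zero 1
  obtain ⟨a, b, hab, habV⟩ : ∃ a b, a ≠ b ∧ e a b ∈ V := by
    have h := V.add_mem hv (hV _ (hcyc i j k hij (Ne.symm hk.1)) v hv)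
    have hjk : j ≠ k := Ne.symm hk.2
    rcases h01 (v k) with hvk | hvk
    · refine ⟨i, j, hij, ?_⟩
      convert h using 1
      ext x
      simp only [e, Pi.add_apply, hinv i j k x hij (Ne.symm hk.1) hjk, Pi.single_apply]
      split_ifs <;> simp_all [CharTwo.add_self_eq_zero]
    · refine ⟨j, k, hjk, ?_⟩
      convert h using 1
      ext x
      simp only [e, Pi.add_apply, hinv i j k x hij (Ne.symm hk.1) hjk, Pi.single_apply]
      split_ifs <;> simp_all [CharTwo.add_self_eq_zero]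
  have ha : ∀ c, e a c ∈ V := by
    intro c
    by_cases hca : c = a
    · convert V.zero_mem using 1
      subst hca
      exact funext fun x => CharTwo.add_self_eq_zero _
    by_cases hcb : c = b
    · rwa [hcb]
    convert V.add_mem habV (hV _ (hcyc a b c hab (Ne.symm hca)) _ habV) using 1
    ext x
    simp only [e, Pi.add_apply, hinv a b c x hab (Ne.symm hca) (Ne.symm hcb), Pi.single_apply]
    split_ifs <;> simp_all [CharTwo.add_self_eq_zero]
  have hwsum : w = ∑ c, (if w c = 1 then e a c else 0) := by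
    ext x
    simp only [Finset.sum_apply]
    have hterm : ∀ c, (if w c = 1 then e a c else 0) x = w c * (Pi.single a (1 : ZMod 2) : Fin n → ZMod 2) x +
        w c * (Pi.single c (1 : ZMod 2) : Fin n → ZMod 2) x := fun c => by
      rcases h01 (w c) with h | h <;> simp [h, e]
    simp only [hterm, Finset.sum_add_distrib, ← Finset.sum_mul, hw]
    simp [Pi.single_apply]
  rw [hwsum]
  refine AddSubgroup.sum_mem _ fun c _ => ?_
  split_ifs
  exacts [ha c, V.zero_mem]

/-- The image in the module of an invariant subgroup. -/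
def image {G : Type*} [Group G] {M : Type*} [AddGroup M] {U : Subgroup G} (ψ : ↥U →* Multiplicative M)
    (Y : Subgroup G) : AddSubgroup M where
  carrier := {v | ∃ u : U, (u : G) ∈ Y ∧ Multiplicative.toAdd (ψ u) = v}
  zero_mem' := ⟨1, one_mem _, by rw [map_one]; rfl⟩
  add_mem' := by
    rintro _ _ ⟨u, hu, rfl⟩ ⟨u', hu', rfl⟩
    exact ⟨u * u', mul_mem hu hu', by rw [map_mul]; rfl⟩
  neg_mem' := by
    rintro _ ⟨u, hu, rfl⟩
    exact ⟨u⁻¹, inv_mem hu, by rw [map_inv]; rfl⟩

theorem exists_div_mem {G : Type*} [Group G] {M : Type*} [AddGroup M] {U U₀ Y : Subgroup G}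
    {ψ : ↥U →* Multiplicative M} (hker : ∀ u : U, ψ u = 1 ↔ (u : G) ∈ U₀) {w : G} (hw : w ∈ U)
    (h : Multiplicative.toAdd (ψ ⟨w, hw⟩) ∈ image ψ Y) : ∃ y ∈ Y, y⁻¹ * w ∈ U₀ := by
  obtain ⟨u, huY, hu⟩ := h
  refine ⟨u, huY, (hker (u⁻¹ * ⟨w, hw⟩)).1 ?_⟩
  rw [map_mul, map_inv, inv_mul_eq_one]
  exact Multiplicative.toAdd.injective hu

theorem sl2_section {G : Type*} [Group G] {F : Type*} [Field F] {E U U₀ Y : Subgroup G}
    (h : Cfsg.ActsAsSL2OnSection F (commutator (Matrix.SpecialLinearGroup (Fin 2) F)) E U U₀) (hY : Y ≤ U)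
    (hEY : E ≤ normalizer (Y : Set G)) (hne : ¬ Y ≤ U₀) {w : G} (hw : w ∈ U) : ∃ y ∈ Y, y⁻¹ * w ∈ U₀ := by
  obtain ⟨-, -, ρ, ψ, hρ, -, hker, hact⟩ := h
  obtain ⟨y, hy, hy0⟩ := SetLike.not_le_iff_exists.1 hne
  refine exists_div_mem hker hw (sl2_commutator_irreducible (image ψ Y) ?_ ⟨⟨y, hY hy⟩, hy, rfl⟩ ?_ _)
  · rintro g hg _ ⟨u, hu, rfl⟩
    rw [← hρ] at hg
    obtain ⟨x, rfl⟩ := hg
    obtain ⟨z, hz, hz'⟩ := hact x u
    exact ⟨z, hz ▸ (mem_normalizer_iff.1 (hEY x.2) _).1 hu, hz'⟩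
  · exact fun h => hy0 ((hker ⟨y, hY hy⟩).1 (Multiplicative.toAdd.injective h))

theorem perm_section {G : Type*} [Group G] {m : ℕ} {E U U₀ Y : Subgroup G}
    (h : Cfsg.ActsAsOddPermModuleOnSection (2 * m + 1) (alternatingGroup (Fin (2 * m + 1))) E U U₀) (hY : Y ≤ U)
    (hEY : E ≤ normalizer (Y : Set G)) (hne : ¬ Y ≤ U₀) {w : G} (hw : w ∈ U) : ∃ y ∈ Y, y⁻¹ * w ∈ U₀ := by
  obtain ⟨-, -, ρ, ψ, hρ, hev, -, hker, hact⟩ := h
  obtain ⟨y, hy, hy0⟩ := SetLike.not_le_iff_exists.1 hne
  refine exists_div_mem hker hw (alternating_even_irreducible ⟨m, rfl⟩ (image ψ Y) ?_ ?_ ⟨⟨y, hY hy⟩, hy, rfl⟩ ?_ _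
    (hev _))
  · rintro _ ⟨u, -, rfl⟩
    exact hev u
  · rintro σ hσ _ ⟨u, hu, rfl⟩
    rw [← hρ] at hσ
    obtain ⟨x, rfl⟩ := hσ
    obtain ⟨z, hz, hz'⟩ := hact x u
    exact ⟨z, hz ▸ (mem_normalizer_iff.1 (hEY x.2) _).1 hu, funext hz'⟩
  · exact fun h => hy0 ((hker ⟨y, hY hy⟩).1 (Multiplicative.toAdd.injective h))

end Cfsg.Agent.LAE62.BlockModules
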