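import Cfsg.Agent.LAE62.BlockModules

/-!
A block is the residual of its product with the `p`-core; its commutator module lies in the centre of the `p`-core.
-/

set_option autoImplicit false

open Subgroup
open scoped commutatorElement

namespace Cfsg.Agent.LAE62.Baumann

variable {G : Type*} [Group G] {p : ℕ}

theorem omegaOneCenter_le (X : Subgroup G) : Cfsg.omegaOneCenter p X ≤ X :=
  (omegaOne_le' _).trans inf_le_left

theorem omegaOneCenter_le_centralizer (X : Subgroup G) : Cfsg.omegaOneCenter p X ≤ centralizer (X : Set G) :=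
  (omegaOne_le' _).trans inf_le_right

theorem omegaOneCenter_comm {X : Subgroup G} {a b : G} (ha : a ∈ Cfsg.omegaOneCenter p X)
    (hb : b ∈ Cfsg.omegaOneCenter p X) : a * b = b * a :=
  mem_centralizer_iff.1 (omegaOneCenter_le_centralizer X hb) a (omegaOneCenter_le X ha)

theorem omegaOneCenter_pow {X : Subgroup G} {x : G} (hx : x ∈ Cfsg.omegaOneCenter p X) : x ^ p = 1 := by
  unfold Cfsg.omegaOneCenter Cfsg.omegaOne at hx
  induction hx using Subgroup.closure_induction with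
  | mem x hx => exact hx.2
  | one => exact one_pow p
  | mul a b ha hb h1 h2 =>
      have hc : Commute a b := omegaOneCenter_comm (p := p) (X := X) ha hb
      rw [hc.mul_pow, h1, h2, one_mul]
  | inv a _ h => rw [inv_pow, h, inv_one]

theorem omegaOneCenter_normal {N : Subgroup G} [hN : N.Normal] : (Cfsg.omegaOneCenter p N).Normal := by
  refine ⟨fun n hn g => ?_⟩
  have h : (Cfsg.omegaOneCenter p N).map (MulAut.conj g).toMonoidHom = Cfsg.omegaOneCenter p N := by
    have hN' : N.map (MulAut.conj g).toMonoidHom = N :=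
      mem_normalizer_iff_map_conj_eq.1 (normalizer_eq_top (H := N) ▸ mem_top g)
    rw [Cfsg.omegaOneCenter, map_omegaOne (f := (MulAut.conj g).toMonoidHom) (MulAut.conj g).injective,
      Modules.map_inf_centralizer (f := (MulAut.conj g).toMonoidHom) (MulAut.conj g).injective, hN']
  exact h ▸ ⟨n, hn, rfl⟩

theorem pCoreOf_le (E : Subgroup G) : Cfsg.pCoreOf p E ≤ E := map_subtype_le _

theorem le_pCoreOf {E Y : Subgroup G} (hYE : Y ≤ E) (hEY : E ≤ normalizer (Y : Set G)) (hY : IsPGroup p Y) :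
    Y ≤ Cfsg.pCoreOf p E := by
  have h : Y.subgroupOf E ≤ Cfsg.pCore p E := Cores.le_pCore (normal_subgroupOf_of_le_normalizer hEY)
    (hY.of_equiv (subgroupOfEquivOfLe hYE).symm)
  intro y hy
  exact ⟨⟨y, hYE hy⟩, h hy, rfl⟩

/-- A `p`-residual subgroup centralizing its commutator with a set of exponent `p` centralizes the set. -/
theorem le_centralizer_of_commutator [Finite G] [hp : Fact p.Prime] {A E : Subgroup G}
    (hres : Cfsg.pResidualOf p E = E) (hexp : ∀ x ∈ ⁅A, E⁆, x ^ p = 1)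
    (hcent : E ≤ centralizer ((⁅A, E⁆ : Subgroup G) : Set G)) : E ≤ centralizer (A : Set G) := by
  conv_lhs => rw [← hres]
  refine pResidualOf_le fun e he hcop => mem_centralizer_iff.2 fun a ha => ?_
  have hc : ⁅e, a⁆ ∈ ⁅A, E⁆ := by rw [commutator_comm]; exact commutator_mem_commutator he ha
  have hcomm : Commute e ⁅e, a⁆ := (mem_centralizer_iff.1 (hcent he) _ hc).symm
  have hk : ∀ k : ℕ, e ^ k * a * (e ^ k)⁻¹ = ⁅e, a⁆ ^ k * a := by
    intro k
    induction k with
    | zero => simp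
    | succ k ih =>
      calc e ^ (k + 1) * a * (e ^ (k + 1))⁻¹ = e * (e ^ k * a * (e ^ k)⁻¹) * e⁻¹ := by
            rw [pow_succ']; group
        _ = e * (⁅e, a⁆ ^ k * a) * e⁻¹ := by rw [ih]
        _ = (e * ⁅e, a⁆ ^ k * e⁻¹) * (e * a * e⁻¹) := by group
        _ = ⁅e, a⁆ ^ k * (⁅e, a⁆ * a) := by
            rw [(hcomm.pow_right k).eq, mul_inv_cancel_right]
            simp only [commutatorElement_def]; group
        _ = ⁅e, a⁆ ^ (k + 1) * a := by rw [pow_succ, mul_assoc]
  have h1 := hk (orderOf e)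
  rw [pow_orderOf_eq_one, one_mul, inv_one, mul_one, eq_comm, mul_eq_right] at h1
  have h2 : orderOf ⁅e, a⁆ = 1 :=
    Nat.eq_one_of_dvd_coprimes hcop (orderOf_dvd_of_pow_eq_one h1) (orderOf_dvd_of_pow_eq_one (hexp _ hc))
  exact (commutatorElement_eq_one_iff_mul_comm.1 (orderOf_eq_one_iff.1 h2)).symm

theorem mul_comm_of_div {C W : Subgroup G} (hW : ∀ w ∈ W, ∀ x ∈ C, x * w = w * x) (hWC : W ≤ C) {Y : Subgroup G}
    (hYC : Y ≤ C) (hY : ∀ a ∈ Y, ∀ b ∈ Y, a * b = b * a) (hdec : ∀ x ∈ C, ∃ y ∈ Y, y⁻¹ * x ∈ W) {x x' : G}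
    (hx : x ∈ C) (hx' : x' ∈ C) : x * x' = x' * x := by
  obtain ⟨y, hy, hw⟩ := hdec x hx
  obtain ⟨y', hy', hw'⟩ := hdec x' hx'
  have e1 : x = y * (y⁻¹ * x) := by group
  have e2 : x' = y' * (y'⁻¹ * x') := by group
  have c1 : Commute y y' := hY y hy y' hy'
  have c2 : Commute y (y'⁻¹ * x') := hW _ hw' y (hYC hy)
  have c3 : Commute (y⁻¹ * x) y' := (hW _ hw y' (hYC hy')).symm
  have c4 : Commute (y⁻¹ * x) (y'⁻¹ * x') := hW _ hw' _ (hWC hw)
  rw [e1, e2]
  exact ((c1.mul_right c2).mul_left (c3.mul_right c4)).eq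

/-- The two conclusions about the commutator module of a block. -/
theorem commutator_module [Finite G] [hp : Fact p.Prime]
    (hG : centralizer (Cfsg.pCore p G : Set G) ≤ Cfsg.pCore p G) (T : Sylow p G) {E : Subgroup G}
    (hE : Cfsg.IsBaumannBlock p (T : Subgroup G) E) :
    Cfsg.pResidualOf p (E ⊔ Cfsg.pCore p G) = E ∧
      ⁅Cfsg.omegaOneCenter p (Cfsg.pCoreOf p E), E⁆ ≤ Cfsg.omegaOneCenter p (Cfsg.pCore p G) ∧
      ⁅⁅Cfsg.omegaOneCenter p (Cfsg.pCoreOf p E), E⁆, Cfsg.thompsonSubgroupOf p (T : Subgroup G)⁆ ≠ ⊥ := by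
  obtain ⟨hres, hEB, -, hΩ, hmod⟩ := hE
  set P := Cfsg.pCore p G with hP
  haveI hPn : P.Normal := Cores.pCore_normal_inst p G
  have hPT : P ≤ T := Cores.pCore_le_sylow T
  have htop : ∀ (X : Subgroup G), X ≤ normalizer (P : Set G) := fun X => by rw [normalizer_eq_top]; exact le_top
  have hPE : P ≤ normalizer (E : Set G) :=
    le_normalizer_block T hres hEB Cores.pCore_isPGroup (htop _) (htop _)
  set Z₁ := Cfsg.omegaOneCenter p P with hZ₁
  haveI hZ₁n : Z₁.Normal := omegaOneCenter_normal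
  set W := Cfsg.omegaOneCenter p (Cfsg.pCoreOf p E) with hW
  have hWE : W ≤ E := (omegaOneCenter_le _).trans (pCoreOf_le E)
  have hΩ1 : Cfsg.omegaOneCenter p (T : Subgroup G) ≤ Z₁ := by
    refine (closure_le _).2 fun x hx => ?_
    have hxc : x ∈ centralizer (P : Set G) :=
      mem_centralizer_iff.2 fun a ha => mem_centralizer_iff.1 hx.1.2 a (hPT ha)
    exact subset_closure ⟨⟨hG hxc, hxc⟩, hx.2⟩
  set Y := ⁅Z₁, E⁆ with hY
  have hYZ : Y ≤ Z₁ := commutator_le_left Z₁ E
  have hYE : Y ≤ E := commutator_le.2 fun z hz e he => by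
    rw [commutatorElement_def]
    exact E.mul_mem ((mem_normalizer_iff.1 (hPE (omegaOneCenter_le P hz)) e).1 he) (E.inv_mem he)
  have hEY : E ≤ normalizer (Y : Set G) := normalizer_commutator_ge_right Z₁ E
  have hYp : IsPGroup p Y := Cores.pCore_isPGroup.to_le (hYZ.trans (omegaOneCenter_le P))
  have hYQ : Y ≤ Cfsg.pCoreOf p E := le_pCoreOf hYE hEY hYp
  have hYc : ¬ Y ≤ centralizer (E : Set G) := fun h => hΩ (by
    have := le_centralizer_of_commutator hres (fun x hx => omegaOneCenter_pow (hYZ hx)) (le_centralizer_iff.1 h)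
    refine eq_bot_mono (commutator_mono le_rfl hΩ1) ?_
    rwa [commutator_eq_bot_iff_le_centralizer])
  have hne : ¬ Y ≤ W ⊓ centralizer (E : Set G) := fun h => hYc (h.trans inf_le_right)
  have hYW : Y ≤ W := by
    rcases hmod with ⟨F, _, _, n, hcard, -, -, hQ | ⟨hp3, hact, hQQ, -, hZE, hn, -⟩⟩ | ⟨-, m, -, -, hQ⟩
    · exact hQ ▸ hYQ
    · by_contra hne'
      have hab : ∀ x ∈ Cfsg.pCoreOf p E, ∀ x' ∈ Cfsg.pCoreOf p E, x * x' = x' * x := fun x hx x' hx' =>
        mul_comm_of_div (fun w hw x hx => mem_centralizer_iff.1 (omegaOneCenter_le_centralizer _ hw) x hx)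
          (omegaOneCenter_le _) hYQ (fun a ha b hb => omegaOneCenter_comm (hYZ ha) (hYZ hb))
          (fun x hx => BlockModules.sl2_section hact hYQ hEY hne' hx) hx hx'
      have hbot : ⁅Cfsg.pCoreOf p E, Cfsg.pCoreOf p E⁆ = ⊥ :=
        (commutator_eq_bot_iff_le_centralizer).2 fun x hx => mem_centralizer_iff.2 fun a ha => hab a ha x hx
      rw [hZE, ← hQQ, hbot, card_bot] at hn
      have hn0 : n = 0 := by
        rcases Nat.eq_zero_or_pos n with h | h
        · exact h
        · have := Nat.one_lt_pow h.ne' (show 1 < 3 by norm_num); omega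
      rw [hn0, pow_zero] at hcard
      have := Fintype.one_lt_card (α := F)
      omega
    · exact hQ ▸ hYQ
  have hdec : ∀ w ∈ W, ∃ y ∈ Y, y⁻¹ * w ∈ W ⊓ centralizer (E : Set G) ∧ y ∈ W := by
    intro w hw
    rcases hmod with ⟨F, _, _, n, -, -, hact, -⟩ | ⟨-, m, -, hact, -⟩
    · obtain ⟨y, hy, h⟩ := BlockModules.sl2_section hact hYW hEY hne hw
      exact ⟨y, hy, h, hYW hy⟩
    · obtain ⟨y, hy, h⟩ := BlockModules.perm_section hact hYW hEY hne hw
      exact ⟨y, hy, h, hYW hy⟩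
  have hWY : ⁅W, E⁆ ≤ Y := commutator_le.2 fun w hw e he => by
    obtain ⟨y, hy, hz, hyW⟩ := hdec w hw
    have h1 : ⁅y⁻¹ * w, e⁆ = 1 :=
      commutatorElement_eq_one_iff_mul_comm.2 ((mem_centralizer_iff.1 hz.2 e he).symm)
    rw [show ⁅w, e⁆ = y * ⁅y⁻¹ * w, e⁆ * y⁻¹ * ⁅y, e⁆ by simp only [commutatorElement_def]; group, h1, mul_one,
      mul_inv_cancel, one_mul, commutatorElement_def]
    exact Y.mul_mem hy (show e * y⁻¹ * e⁻¹ ∈ Y from (mem_normalizer_iff.1 (hEY he) _).1 (Y.inv_mem hy)) |>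
      fun h => by simpa only [mul_assoc] using h
  refine ⟨?_, hWY.trans hYZ, ?_⟩
  · refine le_antisymm (pResidualOf_le fun y hy hcop => ?_) ?_
    · exact pElementsFree_mem Cores.pCore_isPGroup hPE (by rwa [sup_comm]) hcop
    · conv_lhs => rw [← hres]
      exact pResidualOf_le fun y hy hcop => mem_pResidualOf (mem_sup_left hy) hcop
  · intro hbot
    rw [commutator_eq_bot_iff_le_centralizer] at hbot
    have hWT : ⁅W, E⁆ ≤ (T : Subgroup G) := ((hWY.trans hYZ).trans (omegaOneCenter_le P)).trans hPT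
    have hpow : ∀ x ∈ ⁅W, E⁆, x ^ p = 1 := fun x hx => omegaOneCenter_pow ((hWY.trans hYZ) hx)
    have hJ : ⁅W, E⁆ ≤ Cfsg.thompsonSubgroupOf p (T : Subgroup G) := fun x hx => by
      obtain ⟨A, hA⟩ := Modules.maxElemAbIn_nonempty p (T : Subgroup G)
      exact Modules.le_thompsonSubgroupOf hA (Modules.mem_maxElemAbIn_of_centralizing hA (hWT hx)
        (centralizer_le (Modules.le_thompsonSubgroupOf hA) (hbot hx)) (hpow x hx))
    have hB : Cfsg.baumannSubgroupOf p (T : Subgroup G) ≤ centralizer ((⁅W, E⁆ : Subgroup G) : Set G) :=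
      inf_le_right.trans (centralizer_le fun x hx => subset_closure ⟨⟨hJ hx, hbot hx⟩, hpow x hx⟩)
    have hEW : E ≤ centralizer ((⁅W, E⁆ : Subgroup G) : Set G) := by
      refine le_of_commutator_eq hEB hB fun e he c hc => mem_centralizer_iff.2 fun x hx => ?_
      have hn : e⁻¹ * x * e ∈ ⁅W, E⁆ :=
        (mem_normalizer_iff''.1 (normalizer_commutator_ge_right W E he) x).1 hx
      have := mem_centralizer_iff.1 hc _ hn
      calc x * (e * c * e⁻¹) = e * (e⁻¹ * x * e * c) * e⁻¹ := by group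
        _ = e * (c * (e⁻¹ * x * e)) * e⁻¹ := by rw [this]
        _ = e * c * e⁻¹ * x := by group
    have hEW' := le_centralizer_of_commutator hres hpow hEW
    refine hYc fun y hy => mem_centralizer_iff.2 fun e he => ?_
    exact ((mem_centralizer_iff.1 (hEW' he) y (hYW hy)).symm)

end Cfsg.Agent.LAE62.Baumann
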