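import Mathlib.GroupTheory.Transfer
import Mathlib.GroupTheory.QuotientGroup.Basic
import Mathlib.GroupTheory.SpecificGroups.Cyclic
import Mathlib.GroupTheory.Index
import Mathlib.Order.Atoms

/-! A normal subgroup of prime index in a maximal subgroup whose conjugates meet the maximal subgroup inside it. -/

namespace Cfsg.Agent.LAE62

variable {G : Type*} [Group G]

theorem transfer_apply_of_forall [Finite G] {A : Type*} [CommGroup A] {M : Subgroup G} (φ : M →* A) (m : M)
    (hm : ∀ g : G, g ∉ M → ∀ l : ℕ, l ∣ orderOf (m : G) → ∀ h : g⁻¹ * (m : G) ^ l * g ∈ M, φ ⟨_, h⟩ = 1) :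
    φ.transfer (m : G) = φ m := by
  classical
  haveI := Fintype.ofFinite (Quotient (MulAction.orbitRel (Subgroup.zpowers (m : G)) (G ⧸ M)))
  rw [MonoidHom.transfer_eq_prod_quotient_orbitRel_zpowers_quot φ (m : G)]
  let q0 : Quotient (MulAction.orbitRel (Subgroup.zpowers (m : G)) (G ⧸ M)) :=
    Quotient.mk'' ((1 : G) : G ⧸ M)
  rw [Finset.prod_eq_single q0]
  · -- the fixed coset
    set g0 := q0.out.out with hg0
    have hfix : (m : G) • ((1 : G) : G ⧸ M) = ((1 : G) : G ⧸ M) := by
      rw [MulAction.Quotient.smul_mk, QuotientGroup.eq]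
      simp
    have hout : q0.out = ((1 : G) : G ⧸ M) := by
      have h := Quotient.exact' (Quotient.out_eq' q0)
      obtain ⟨⟨z, hz⟩, hzz⟩ := h
      obtain ⟨k, rfl⟩ := Subgroup.mem_zpowers_iff.1 hz
      rw [← hzz]
      exact MulAction.mem_stabilizer_iff.1
        (Subgroup.zpow_mem _ (MulAction.mem_stabilizer_iff.2 hfix) k)
    have hg : g0 ∈ M := by
      have : ((q0.out.out : G) : G ⧸ M) = ((1 : G) : G ⧸ M) := by rw [QuotientGroup.out_eq']; exact hout
      simpa using QuotientGroup.eq.1 this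
    have hper : Function.minimalPeriod ((m : G) • ·) q0.out = 1 := by
      rw [Function.minimalPeriod_eq_one_iff_isFixedPt, Function.IsFixedPt, hout]
      exact hfix
    simp only [hper, pow_one]
    have : (⟨g0⁻¹ * (m : G) * g0, M.mul_mem (M.mul_mem (M.inv_mem hg) m.2) hg⟩ : M)
        = ⟨g0, hg⟩⁻¹ * m * ⟨g0, hg⟩ := Subtype.ext rfl
    rw [this, map_mul, map_mul, map_inv, mul_comm (φ ⟨g0, hg⟩)⁻¹, inv_mul_cancel_right]
  · intro q _ hq
    set y := q.out.out⁻¹ * (m : G) ^ Function.minimalPeriod ((m : G) • ·) q.out * q.out.out with hy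
    have hy' : y ∈ M :=
      QuotientGroup.out_conj_pow_minimalPeriod_mem M (m : G) q.out
    have hg : q.out.out ∉ M := by
      intro hmem
      apply hq
      rw [← Quotient.out_eq' q]
      show Quotient.mk'' _ = Quotient.mk'' _
      congr 1
      rw [← QuotientGroup.out_eq' q.out, QuotientGroup.eq]
      simpa using M.inv_mem hmem
    exact hm q.out.out hg _ (Function.IsPeriodicPt.minimalPeriod_dvd
      (show Function.IsPeriodicPt ((m : G) • ·) (orderOf (m : G)) q.out by
        rw [Function.IsPeriodicPt, Function.IsFixedPt, smul_iterate_apply, pow_orderOf_eq_one, one_smul])) hy'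
  · simp

/-- If `M ∩ gMg⁻¹ ≤ H` for all `g ∉ M`, `H ⊴ M` with `M / H` abelian, then `H` extends to a normal subgroup. -/
theorem exists_normal_inf_eq_of_inter_le [Finite G] (H M : Subgroup G) (hHM : H ≤ M)
    [(H.subgroupOf M).Normal] (hab : IsMulCommutative (M ⧸ H.subgroupOf M))
    (hint : ∀ g : G, g ∉ M → ∀ y ∈ M, g * y * g⁻¹ ∈ M → y ∈ H) :
    ∃ K : Subgroup G, K.Normal ∧ K ⊓ M = H := by
  classical
  letI : CommGroup (M ⧸ H.subgroupOf M) :=
    { (inferInstance : Group (M ⧸ H.subgroupOf M)) with mul_comm := fun a b => hab.is_comm.comm a b }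
  let φ : M →* M ⧸ H.subgroupOf M := QuotientGroup.mk' _
  let T : G →* M ⧸ H.subgroupOf M := φ.transfer
  have hval : ∀ m : M, T (m : G) = φ m := fun m => transfer_apply_of_forall φ m fun g hg l _ hy =>
    (QuotientGroup.eq_one_iff (N := H.subgroupOf M) _).2 (hint g hg _ hy (by simpa [mul_assoc] using M.pow_mem m.2 l))
  refine ⟨T.ker, inferInstance, le_antisymm (fun y hy => ?_) fun y hy => ⟨?_, hHM hy⟩⟩
  · have := hval ⟨y, hy.2⟩
    rw [MonoidHom.mem_ker.1 hy.1] at this
    exact (QuotientGroup.eq_one_iff (N := H.subgroupOf M) _).1 this.symm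
  · show T y = 1
    rw [show T y = φ ⟨y, hHM hy⟩ from hval ⟨y, hHM hy⟩]
    exact (QuotientGroup.eq_one_iff (N := H.subgroupOf M) _).2 hy

/-- The common core: a normal subgroup of prime index in a maximal subgroup. -/
theorem exists_normal_inf_eq_of_join_inter [Finite G] (H M : Subgroup G) (hHM : H ≤ M)
    (hn : M ≤ Subgroup.normalizer (H : Set G)) (hmaxH : IsCoatom (H.subgroupOf M))
    (hmaxM : IsCoatom M) (hHn : ¬ H.Normal)
    (hcl : ∀ g : G, g ∉ M → (H ⊔ H.map (MulAut.conj g).toMonoidHom) ⊓ M = H) :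
    ∃ K : Subgroup G, K.Normal ∧ K ⊓ M = H := by
  classical
  haveI : (H.subgroupOf M).Normal := Subgroup.normal_subgroupOf_iff_le_normalizer hHM |>.2 hn
  have hcyc : IsMulCommutative (M ⧸ H.subgroupOf M) := by
    -- a group without proper nontrivial subgroups is cyclic
    haveI : Nontrivial (M ⧸ H.subgroupOf M) := by
      rw [QuotientGroup.nontrivial_iff]
      exact hmaxH.1
    obtain ⟨c, hc⟩ := exists_ne (1 : M ⧸ H.subgroupOf M)
    have htop : (Subgroup.zpowers c).comap (QuotientGroup.mk' (H.subgroupOf M)) = ⊤ := by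
      refine hmaxH.2 _ (lt_of_le_of_ne (fun a (ha : a ∈ H.subgroupOf M) => ?_) fun e => hc ?_)
      · show QuotientGroup.mk' (H.subgroupOf M) a ∈ Subgroup.zpowers c
        rw [QuotientGroup.mk'_apply, (QuotientGroup.eq_one_iff (N := H.subgroupOf M) a).2 ha]; exact one_mem _
      · obtain ⟨a, rfl⟩ := QuotientGroup.mk'_surjective _ c
        have : a ∈ H.subgroupOf M := by
          rw [e]; exact Subgroup.mem_zpowers _
        exact (QuotientGroup.eq_one_iff (N := H.subgroupOf M) a).2 this
    haveI : IsCyclic (M ⧸ H.subgroupOf M) := ⟨c, fun b => by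
      obtain ⟨a, rfl⟩ := QuotientGroup.mk'_surjective _ b
      exact (htop ▸ Subgroup.mem_top a :)⟩
    exact IsCyclic.isMulCommutative
  by_contra hno
  refine hno (exists_normal_inf_eq_of_inter_le H M hHM hcyc fun g hg y hy hgy => ?_)
  by_contra hyH
  set g' := g⁻¹ with hg'
  have hg'M : g' ∉ M := fun h => hg (by simpa [g'] using M.inv_mem h)
  set X := H ⊔ H.map (MulAut.conj g').toMonoidHom with hX
  have hXM := hcl g' hg'M
  -- `y` normalizes both generating subgroups
  have hyX : y ∈ Subgroup.normalizer (X : Set G) := by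
    rw [Subgroup.mem_normalizer_iff_map_conj_eq, Subgroup.map_sup,
      Subgroup.mem_normalizer_iff_map_conj_eq.1 (hn hy), Subgroup.map_map]
    congr 1
    have h2 := Subgroup.mem_normalizer_iff_map_conj_eq.1 (hn hgy)
    conv_rhs => rw [← h2, Subgroup.map_map]
    congr 1
    ext a
    simp [g', mul_assoc]
  have hXn : X.Normal := by
    rw [← Subgroup.normalizer_eq_top_iff]
    refine hmaxM.2 _ (lt_of_le_of_ne ?_ ?_)
    · -- `M` is generated by `H` and `y`
      have h1 : (M ⊓ Subgroup.normalizer (X : Set G)).subgroupOf M = ⊤ := by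
        refine hmaxH.2 _ (lt_of_le_of_ne (fun a ha => ⟨a.2, ?_⟩) fun e => hyH ?_)
        · exact Subgroup.le_normalizer (Subgroup.mem_sup_left (show (a : G) ∈ H from ha))
        · have : (⟨y, hy⟩ : M) ∈ (M ⊓ Subgroup.normalizer (X : Set G)).subgroupOf M := ⟨hy, hyX⟩
          rw [← e] at this
          exact this
      exact fun a ha => ((h1 ▸ Subgroup.mem_top (⟨a, ha⟩ : M) :) : _ ∈ M ⊓ _).2
    · intro e
      -- otherwise the second subgroup lies in `M`
      have hX' : X ≤ M := e ▸ Subgroup.le_normalizer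
      rw [inf_eq_left.2 hX'] at hXM
      have hgH : g' ∈ Subgroup.normalizer (H : Set G) := by
        rw [Subgroup.mem_normalizer_iff_map_conj_eq]
        exact Subgroup.eq_of_le_of_card_ge (le_sup_right.trans hXM.le)
          (Subgroup.card_map_of_injective (MulAut.conj g').injective).ge
      rcases hmaxM.le_iff.1 hn with h | h
      · exact hHn (Subgroup.normalizer_eq_top_iff.1 h)
      · exact hg'M (h ▸ hgH)
  exact hno ⟨X, hXn, hXM⟩

end Cfsg.Agent.LAE62
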