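import Mathlib.GroupTheory.Nilpotent
import Cfsg.Agent.LAE62.ChermakDelgado
import Cfsg.Agent.LAE62.Complements
import Cfsg.Agent.LAE62.SylowBasics

/-!
A minimal centrally large subgroup of a finite `p`-group normalized by `J(P)` and by all minimal centrally large
subgroups.
-/

open scoped Pointwise commutatorElement

namespace Cfsg.Agent.LAE62

variable {G : Type*} [Group G]

/-- The conjugate `g X g⁻¹`. -/
abbrev cjg (g : G) (X : Subgroup G) : Subgroup G := X.map (MulAut.conj g).toMonoidHom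

theorem centralizer_cjg (g : G) (X : Subgroup G) :
    Subgroup.centralizer (cjg g X : Set G) = cjg g (Subgroup.centralizer (X : Set G)) := by
  ext a
  constructor
  · intro ha
    refine ⟨g⁻¹ * a * g, fun x hx => ?_, by simp [mul_assoc]⟩
    have := Subgroup.mem_centralizer_iff.1 ha _ ⟨x, hx, rfl⟩
    simp only [MulEquiv.toMonoidHom_eq_coe, MonoidHom.coe_coe, MulAut.conj_apply] at this
    calc x * (g⁻¹ * a * g) = g⁻¹ * (g * x * g⁻¹ * a) * g := by group
      _ = g⁻¹ * (a * (g * x * g⁻¹)) * g := by rw [this]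
      _ = g⁻¹ * a * g * x := by group
  · rintro ⟨b, hb, rfl⟩
    rintro _ ⟨x, hx, rfl⟩
    simp only [MulEquiv.toMonoidHom_eq_coe, MonoidHom.coe_coe, MulAut.conj_apply]
    calc g * x * g⁻¹ * (g * b * g⁻¹) = g * (x * b) * g⁻¹ := by group
      _ = g * (b * x) * g⁻¹ := by rw [Subgroup.mem_centralizer_iff.1 hb x hx]
      _ = _ := by group

theorem card_cjg (g : G) (X : Subgroup G) : Nat.card (cjg g X) = Nat.card X :=
  Subgroup.card_map_of_injective (MulAut.conj g).injective

theorem cjg_mul (g h : G) (X : Subgroup G) : cjg g (cjg h X) = cjg (g * h) X := conj_map_mul g h X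

theorem cjg_one (X : Subgroup G) : cjg 1 X = X := by
  show X.map (MulAut.conj (1 : G)).toMonoidHom = X
  rw [map_one]; exact Subgroup.map_id _

theorem cjg_eq_of_mem {g : G} {X : Subgroup G} (h : g ∈ Subgroup.normalizer (X : Set G)) : cjg g X = X :=
  Subgroup.mem_normalizer_iff_map_conj_eq.1 h

theorem mem_of_cjg_eq {g : G} {X : Subgroup G} (h : cjg g X = X) : g ∈ Subgroup.normalizer (X : Set G) :=
  Subgroup.mem_normalizer_iff_map_conj_eq.2 h

theorem cjg_mono {g : G} {X Y : Subgroup G} (h : X ≤ Y) : cjg g X ≤ cjg g Y := Subgroup.map_mono h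

theorem cjg_inf (g : G) (X Y : Subgroup G) : cjg g (X ⊓ Y) = cjg g X ⊓ cjg g Y :=
  Subgroup.map_inf _ _ _ (MulAut.conj g).injective

theorem cjg_sup (g : G) (X Y : Subgroup G) : cjg g (X ⊔ Y) = cjg g X ⊔ cjg g Y := Subgroup.map_sup _ _ _

theorem cjg_isMulCommutative (g : G) {X : Subgroup G} (h : X ≤ Subgroup.centralizer (X : Set G)) :
    cjg g X ≤ Subgroup.centralizer (cjg g X : Set G) := (centralizer_cjg g X).symm ▸ cjg_mono h

theorem normalizer_inf (X Y : Subgroup G) :
    Subgroup.normalizer (X : Set G) ⊓ Subgroup.normalizer (Y : Set G) ≤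
      Subgroup.normalizer ((X ⊓ Y : Subgroup G) : Set G) := fun g hg =>
  mem_of_cjg_eq (by rw [cjg_inf, cjg_eq_of_mem hg.1, cjg_eq_of_mem hg.2])

theorem normalizer_sup (X Y : Subgroup G) :
    Subgroup.normalizer (X : Set G) ⊓ Subgroup.normalizer (Y : Set G) ≤
      Subgroup.normalizer ((X ⊔ Y : Subgroup G) : Set G) := fun g hg =>
  mem_of_cjg_eq (by rw [cjg_sup, cjg_eq_of_mem hg.1, cjg_eq_of_mem hg.2])

theorem normalizer_centralizer (X : Subgroup G) :
    Subgroup.normalizer (X : Set G) ≤ Subgroup.normalizer (Subgroup.centralizer (X : Set G) : Set G) :=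
  fun g hg => mem_of_cjg_eq (by rw [← centralizer_cjg, cjg_eq_of_mem hg])

theorem normalizer_cjg {g : G} {T X : Subgroup G} (hg : g ∈ Subgroup.normalizer (T : Set G))
    (hT : T ≤ Subgroup.normalizer (X : Set G)) : T ≤ Subgroup.normalizer (cjg g X : Set G) := by
  intro t ht
  have ht' : g⁻¹ * t * g ∈ T := by
    have := (Subgroup.mem_normalizer_iff.1 (Subgroup.inv_mem _ hg) t).1 ht
    rwa [inv_inv] at this
  refine mem_of_cjg_eq ?_
  rw [cjg_mul, show t * g = g * (g⁻¹ * t * g) by group, ← cjg_mul, cjg_eq_of_mem (hT ht')]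

theorem cjg_large [Finite G] (g : G) {X : Subgroup G} (h : Cfsg.IsCentralizerLarge X) :
    Cfsg.IsCentralizerLarge (cjg g X) := by
  show _ * _ = _
  rw [centralizer_cjg, card_cjg, card_cjg]; exact h

theorem cjg_centrallyLarge [Finite G] (g : G) {X : Subgroup G} (h : Cfsg.IsCentrallyLarge X) :
    Cfsg.IsCentrallyLarge (cjg g X) := by
  rw [centrallyLarge_iff] at *
  exact ⟨cjg_large g h.1, centralizer_cjg g X ▸ cjg_mono h.2⟩

theorem cjg_minimal [Finite G] (g : G) {X : Subgroup G} (h : Cfsg.IsMinimalCentrallyLarge X) :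
    Cfsg.IsMinimalCentrallyLarge (cjg g X) := by
  refine ⟨cjg_centrallyLarge g h.1, fun R hR hRL => ?_⟩
  have := h.2 (cjg g⁻¹ R) (by
    refine (cjg_mono hR).trans ?_
    rw [cjg_mul, inv_mul_cancel, cjg_one]) (cjg_centrallyLarge _ hRL)
  rw [← this, cjg_mul, mul_inv_cancel, cjg_one]

theorem cjg_maxAbelian [Finite G] (g : G) {A : Subgroup G} (h : A ∈ Cfsg.maxAbelianSubgroups G) :
    cjg g A ∈ Cfsg.maxAbelianSubgroups G := by
  refine ⟨?_, fun B hB => (card_cjg g A).symm ▸ h.2 B hB⟩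
  rw [← Subgroup.le_centralizer_iff_isMulCommutative]
  exact cjg_isMulCommutative g (Subgroup.le_centralizer_iff_isMulCommutative.2 h.1)

/-- An abelian member of the lattice. -/
def AbLarge (U : Subgroup G) : Prop :=
  Cfsg.IsCentralizerLarge U ∧ U ≤ Subgroup.centralizer (U : Set G)

variable [Finite G]

theorem AbLarge.cl {U : Subgroup G} (h : AbLarge U) :
    Cfsg.IsCentrallyLarge (Subgroup.centralizer (U : Set G)) := by
  rw [centrallyLarge_iff]
  exact ⟨(large_centralizer h.1).1, (large_centralizer h.1).2.le.trans h.2⟩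

theorem AbLarge.cen {U : Subgroup G} (h : AbLarge U) : cen (Subgroup.centralizer (U : Set G)) = U := by
  rw [LAE62.cen, (large_centralizer h.1).2]
  exact inf_eq_right.2 h.2

theorem abLarge_centralizer {Q : Subgroup G} (hQ : Cfsg.IsCentrallyLarge Q) :
    AbLarge (Subgroup.centralizer (Q : Set G)) := by
  obtain ⟨h1, h2⟩ := centrallyLarge_iff.1 hQ
  exact ⟨(large_centralizer h1).1, centralizer_anti h2⟩

/-- An abelian member below some centre of a minimal centrally large subgroup, with the same normalizing elements. -/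
theorem exists_minimal_over {Q W : Subgroup G} (hQ : Cfsg.IsMinimalCentrallyLarge Q) (hW : AbLarge W) :
    ∃ R : Subgroup G, Cfsg.IsMinimalCentrallyLarge R ∧ W ≤ Subgroup.centralizer (R : Set G) ∧
      Subgroup.normalizer (Q : Set G) ⊓ Subgroup.normalizer (W : Set G) ≤ Subgroup.normalizer (R : Set G) := by
  obtain ⟨hQL, hQC⟩ := centrallyLarge_iff.1 hQ.1
  set Z := Subgroup.centralizer (Q : Set G) with hZ
  set M := Z ⊓ Subgroup.centralizer (W : Set G) with hM
  have hMC : Subgroup.centralizer ((Q ⊔ W : Subgroup G) : Set G) = M := centralizer_sup Q W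
  have hMl := (large_lattice (large_centralizer hQL).1 (large_centralizer hW.1).1).2.1
  have hZ1 : AbLarge (M ⊔ W) := by
    refine ⟨(large_lattice hMl hW.1).1, ?_⟩
    rw [centralizer_sup]
    refine sup_le (le_inf ?_ inf_le_right) (le_inf (Subgroup.le_centralizer_iff.1 inf_le_right) hW.2)
    exact (inf_le_left : M ≤ Z).trans ((centralizer_anti hQC).trans (centralizer_anti inf_le_left))
  obtain ⟨R, hR, hRm⟩ := exists_minimalCentrallyLarge_le hZ1.cl
  have hle : M ⊔ W ≤ Subgroup.centralizer (R : Set G) := Subgroup.le_centralizer_iff.1 hR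
  -- count: the new member is at least as large as the centre of `Q`
  have hcard : Nat.card ↥(Subgroup.centralizer (R : Set G)) ≤ Nat.card ↥(M ⊔ W) := by
    have e0 := (minimal_props hQ hRm).2.2
    rw [cen, cen, inf_eq_right.2 hQC, inf_eq_right.2 (centrallyLarge_iff.1 hRm.1).2] at e0
    rw [← e0]
    have h1 := card_mul_card_le_sup M W
    have h2 := (large_lattice hQL hW.1).1
    rw [Cfsg.IsCentralizerLarge, hMC, ← hQL, ← hZ] at h2
    have h3 : Nat.card ↥(Q ⊔ W) * Nat.card ↥(Q ⊓ W) = Nat.card Q * Nat.card W := by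
      rw [← natCard_setMul_mul_inf Q W, ← (large_lattice hQL hW.1).2.2.1]
      rfl
    have h4 : Nat.card ↥(M ⊓ W) ≤ Nat.card ↥(Q ⊓ W) := by
      refine Subgroup.card_le_of_le (le_inf ?_ inf_le_right)
      exact inf_le_left.trans (inf_le_left.trans hQC)
    set m := Nat.card M
    set w := Nat.card W
    set q := Nat.card Q
    set z := Nat.card Z
    set s := Nat.card ↥(Q ⊔ W)
    set d := Nat.card ↥(Q ⊓ W)
    set e := Nat.card ↥(M ⊓ W)
    set n := Nat.card ↥(M ⊔ W)
    have hq : 0 < q := Nat.card_pos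
    have hd : 0 < d := Nat.card_pos
    refine Nat.le_of_mul_le_mul_left (?_ : q * d * z ≤ q * d * n) (Nat.mul_pos hq hd)
    calc q * d * z = q * z * d := by ring
      _ = s * d * m := by rw [← h2]; ring
      _ = q * (w * m) := by rw [h3]; ring
      _ ≤ q * (n * e) := Nat.mul_le_mul_left _ (by rw [mul_comm w]; exact h1)
      _ ≤ q * (n * d) := Nat.mul_le_mul_left _ (Nat.mul_le_mul_left _ h4)
      _ = q * d * n := by ring
  have heq := Subgroup.eq_of_le_of_card_ge hle hcard
  refine ⟨R, hRm, le_sup_right.trans hle, ?_⟩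
  rw [← (large_centralizer (centrallyLarge_iff.1 hRm.1).1).2, ← heq]
  refine le_trans ?_ (normalizer_centralizer _)
  refine le_trans (le_inf ?_ inf_le_right) (normalizer_sup _ _)
  exact (le_inf (inf_le_left.trans (normalizer_centralizer Q)) (inf_le_right.trans (normalizer_centralizer W))).trans
    (normalizer_inf _ _)

/-- The subgroups allowed as extra generators. -/
def IsReplGen (B : Subgroup G) : Prop := AbLarge B ∨ B ∈ Cfsg.maxAbelianSubgroups G

theorem IsReplGen.ab {B : Subgroup G} (hB : IsReplGen B) : B ≤ Subgroup.centralizer (B : Set G) := by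
  rcases hB with h | h
  · exact h.2
  · exact (centralizer_maxAbelian h).ge

theorem conj_fix {B : Subgroup G} (hB : B ≤ Subgroup.centralizer (B : Set G)) {h b : G} (hh : h ∈ B)
    (hb : b ∈ B) : h * b * h⁻¹ = b := by
  rw [← Subgroup.mem_centralizer_iff.1 (hB hh) b hb, mul_inv_cancel_right]

theorem cjg_le_sup {B U : Subgroup G} {h : G} (hh : h ∈ B) : cjg h U ≤ U ⊔ B := by
  rintro _ ⟨u, hu, rfl⟩
  exact Subgroup.mul_mem _ (Subgroup.mul_mem _ (Subgroup.mem_sup_right hh) (Subgroup.mem_sup_left hu))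
    (Subgroup.mem_sup_right (Subgroup.inv_mem _ hh))

/-- The join of a hyperbolic pair `U, hUh⁻¹` is generated by `U` and part of `B`. -/
theorem hyperbolic_le {B U : Subgroup G} {h : G} (hB : IsReplGen B) (hU : AbLarge U) (hh : h ∈ B)
    (h1 : cjg h U ⊓ Subgroup.centralizer (U : Set G) ≤ U) :
    cjg h U ≤ U ⊔ (B ⊓ (U ⊔ cjg h U)) := by
  intro x hx
  have hxE : x ∈ U ⊔ cjg h U := Subgroup.mem_sup_right hx
  rcases hB with hB | hB
  · obtain ⟨u, hu, b, hb, rfl⟩ :=
      sup_mul_subset (large_lattice hU.1 hB.1).2.2.1 (cjg_le_sup hh hx)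
    refine Subgroup.mul_mem_sup hu ⟨hb, ?_⟩
    have := Subgroup.mul_mem _ (Subgroup.inv_mem _ (Subgroup.mem_sup_left hu : u ∈ U ⊔ cjg h U)) hxE
    rwa [inv_mul_cancel_left] at this
  · have hBab : B ≤ Subgroup.centralizer (B : Set G) := (centralizer_maxAbelian hB).ge
    set CU := Subgroup.centralizer (U : Set G) with hCU
    set D := CU ⊓ cjg h CU with hD
    set E := U ⊔ cjg h U with hE
    have hU' := cjg_large h hU.1
    have hEl := large_lattice hU.1 hU'
    have hCE : Subgroup.centralizer (E : Set G) = D := by rw [hE, centralizer_sup, centralizer_cjg]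
    have hDl : Cfsg.IsCentralizerLarge D := hCE ▸ (large_centralizer hEl.1).1
    have hCD : Subgroup.centralizer (D : Set G) = E := hCE ▸ (large_centralizer hEl.1).2
    -- `C(U) = U ⊔ D`
    have hUD : U ⊔ D = CU := by
      have hl := (large_lattice hU.1 hDl).1
      rw [← (large_centralizer hl).2, centralizer_sup, hCD]
      congr 1
      refine le_antisymm ?_ (le_inf hU.2 (le_sup_left : U ≤ U ⊔ cjg h U))
      rintro a ⟨ha, haE⟩
      obtain ⟨u, hu, v, hv, rfl⟩ := sup_mul_subset hEl.2.2.1 haE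
      refine U.mul_mem hu (h1 ⟨hv, ?_⟩)
      have := CU.mul_mem (CU.inv_mem (hU.2 hu)) ha
      rwa [inv_mul_cancel_left] at this
    obtain ⟨hQA, hset, hmax⟩ := centrallyLarge_sup_maxAbelian hU.cl hB
    rw [hU.cen] at hmax
    rw [← hCU] at hset hmax hQA
    have hxCA : x ∈ CU ⊔ B := (cjg_le_sup hh).trans (sup_le_sup_right hU.2 B) hx
    obtain ⟨c, hc, a, ha, rfl⟩ := sup_mul_subset hset hxCA
    obtain ⟨u, hu, d, hd, rfl⟩ : ∃ u ∈ U, ∃ d ∈ D, u * d = c := by
      refine sup_mul_subset (large_lattice hU.1 hDl).2.2.1 ?_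
      rw [hUD]; exact hc
    have hda : d * a ∈ E := by
      have := E.mul_mem (E.inv_mem (Subgroup.mem_sup_left hu)) hxE
      rwa [mul_assoc, inv_mul_cancel_left] at this
    -- `d` centralizes a self-centralizing subgroup
    have hdX : d ∈ U ⊔ (CU ⊓ B) := by
      rw [← centralizer_maxAbelian hmax, centralizer_sup]
      refine ⟨hd.1, fun a0 ha0 => ?_⟩
      have ha0D : a0 ∈ D := ⟨ha0.1, a0, ha0.1, conj_fix hBab hh ha0.2⟩
      have hc1 : Commute a0 (d * a) :=
        (Subgroup.mem_centralizer_iff.1 (hCE.ge ha0D) _ hda).symm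
      have hc2 : Commute a0 a := Subgroup.mem_centralizer_iff.1 (hBab ha) a0 ha0.2
      have := hc1.mul_right hc2.inv_right
      rwa [mul_inv_cancel_right] at this
    obtain ⟨u', hu', a0, ha0, rfl⟩ : ∃ u' ∈ U, ∃ a0 ∈ CU ⊓ B, u' * a0 = d := by
      refine sup_mul_subset ?_ hdX
      exact (Subgroup.coe_mul_of_right_le_normalizer_left U (CU ⊓ B)
        (inf_le_left.trans (Subgroup.centralizer_le_normalizer _)))
    have hfin : u * (u' * a0) * a = (u * u') * (a0 * a) := by group
    rw [hfin] at hxE ⊢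
    refine Subgroup.mul_mem_sup (U.mul_mem hu hu') ⟨B.mul_mem ha0.2 ha, ?_⟩
    have := E.mul_mem (E.inv_mem (Subgroup.mem_sup_left (U.mul_mem hu hu'))) hxE
    rwa [inv_mul_cancel_left] at this

variable {p : ℕ} [Fact p.Prime]

/-- The inductive step: adjoining one element. -/
theorem extend_element (hP : IsPGroup p G) {K T Q B : Subgroup G} {g : G}
    (hKL : Cfsg.IsCentrallyLarge K) (hKT : K ≤ T) (hTK : T ≤ Subgroup.normalizer (K : Set G))
    (hgK : g ∈ Subgroup.normalizer (K : Set G)) (hgT : g ∈ Subgroup.normalizer (T : Set G))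
    (hB : IsReplGen B) (hgB : g ∈ B) (hgp : g ^ p ∈ T)
    (hQ : Cfsg.IsMinimalCentrallyLarge Q) (hTQ : T ≤ Subgroup.normalizer (Q : Set G)) :
    ∃ R : Subgroup G, Cfsg.IsMinimalCentrallyLarge R ∧ R ≤ K ∧ T ≤ Subgroup.normalizer (R : Set G) ∧
      g ∈ Subgroup.normalizer (R : Set G) := by
  obtain ⟨hKl, hKC⟩ := centrallyLarge_iff.1 hKL
  let Pw : Subgroup G → Prop := fun W => AbLarge W ∧ Subgroup.centralizer (K : Set G) ≤ W ∧ W ≤ K ∧
    T ≤ Subgroup.normalizer (W : Set G) ∧ g ∈ Subgroup.normalizer (W : Set G)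
  obtain ⟨W, ⟨hW, hWK, hWleK, hTW, hgW⟩, hWmax⟩ := (Set.toFinite {W : Subgroup G | Pw W}).exists_maximal
    ⟨_, abLarge_centralizer hKL, le_rfl, hKC, hTK.trans (normalizer_centralizer K), normalizer_centralizer K hgK⟩
  obtain ⟨R, hR, hWR, hRN⟩ := exists_minimal_over hQ hW
  have hTR : T ≤ Subgroup.normalizer (R : Set G) := (le_inf hTQ hTW).trans hRN
  have hRK : R ≤ K := by
    calc R ≤ Subgroup.centralizer (Subgroup.centralizer (R : Set G) : Set G) := le_centralizer_centralizer R
      _ ≤ Subgroup.centralizer (W : Set G) := centralizer_anti hWR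
      _ ≤ Subgroup.centralizer (Subgroup.centralizer (K : Set G) : Set G) := centralizer_anti hWK
      _ = K := (large_centralizer hKl).2
  set Z1 := Subgroup.centralizer (R : Set G) with hZ1
  rcases hWR.eq_or_lt with hWeq | hWlt
  · refine ⟨R, hR, hRK, hTR, ?_⟩
    rw [← (large_centralizer (centrallyLarge_iff.1 hR.1).1).2, ← hZ1, ← hWeq]
    exact normalizer_centralizer W hgW
  exfalso
  have hZ1K : Z1 ≤ K := (centrallyLarge_iff.1 hR.1).2.trans hRK
  obtain ⟨U, ⟨hU, hWU, hUZ, hTU⟩, hUmin⟩ := (Set.toFinite {X : Subgroup G |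
      AbLarge X ∧ W < X ∧ X ≤ Z1 ∧ T ≤ Subgroup.normalizer (X : Set G)}).exists_minimal
    ⟨Z1, abLarge_centralizer hR.1, hWlt, le_rfl, hTR.trans (normalizer_centralizer R)⟩
  have hUK : U ≤ K := hUZ.trans hZ1K
  -- powers of `g`
  have hpowT : ∀ j : ℕ, g ^ j ∈ Subgroup.normalizer (T : Set G) := fun j => Subgroup.pow_mem _ hgT j
  have hpowW : ∀ j : ℕ, cjg (g ^ j) W = W := fun j => cjg_eq_of_mem (Subgroup.pow_mem _ hgW j)
  have hUjK : ∀ j : ℕ, cjg (g ^ j) U ≤ K := fun j =>
    (cjg_mono hUK).trans (cjg_eq_of_mem (Subgroup.pow_mem _ hgK j)).le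
  by_cases hcomm : ∀ j : ℕ, cjg (g ^ j) U ≤ Subgroup.centralizer (U : Set G)
  · -- the orbit generates an abelian member normalized by `g`
    set S : Set (Subgroup G) := Set.range fun j : ℕ => cjg (g ^ j) U with hS
    have hpair : ∀ i j : ℕ, cjg (g ^ i) U ≤ Subgroup.centralizer (cjg (g ^ j) U : Set G) := by
      intro i j
      rcases le_total j i with h | h
      · obtain ⟨k, rfl⟩ := Nat.exists_eq_add_of_le h
        rw [centralizer_cjg, pow_add, ← cjg_mul]
        exact cjg_mono (hcomm k)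
      · obtain ⟨k, rfl⟩ := Nat.exists_eq_add_of_le h
        rw [Subgroup.le_centralizer_iff, centralizer_cjg, pow_add, ← cjg_mul]
        exact cjg_mono (hcomm k)
    have habel : sSup S ≤ Subgroup.centralizer ((sSup S : Subgroup G) : Set G) := by
      refine sSup_le ?_
      rintro _ ⟨i, rfl⟩
      rw [Subgroup.le_centralizer_iff]
      refine sSup_le ?_
      rintro _ ⟨j, rfl⟩
      exact hpair j i
    have hlarge : Cfsg.IsCentralizerLarge (sSup S) := by
      have key : ∀ s : Set (Subgroup G), s.Nonempty → (∀ X ∈ s, Cfsg.IsCentralizerLarge X) →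
          Cfsg.IsCentralizerLarge (sSup s) := by
        intro s hs hall
        revert hs hall
        refine s.toFinite.induction_on _ (fun hs => absurd hs (by simp)) ?_
        intro a t _ _ ih _ hall
        rw [sSup_insert]
        rcases t.eq_empty_or_nonempty with rfl | ht
        · simpa using hall a (Set.mem_insert _ _)
        · exact (large_lattice (hall a (Set.mem_insert _ _)) (ih ht fun X hX => hall X (Set.mem_insert_of_mem _ hX))).1
      refine key S (Set.range_nonempty _) ?_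
      rintro _ ⟨j, rfl⟩
      exact cjg_large _ hU.1
    have hTS : T ≤ Subgroup.normalizer ((sSup S : Subgroup G) : Set G) := by
      intro t ht
      refine mem_normalizer_of_conj_mem ?_
      have : cjg t (sSup S) ≤ sSup S := by
        rw [show cjg t (sSup S) = _ from (Subgroup.gc_map_comap _).l_sSup]
        refine iSup₂_le ?_
        rintro _ ⟨j, rfl⟩
        exact (cjg_eq_of_mem (normalizer_cjg (hpowT j) hTU ht)).le.trans (le_sSup ⟨j, rfl⟩)
      exact fun a ha => this ⟨a, ha, rfl⟩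
    have hgS : g ∈ Subgroup.normalizer ((sSup S : Subgroup G) : Set G) := by
      refine mem_normalizer_of_conj_mem ?_
      have : cjg g (sSup S) ≤ sSup S := by
        rw [show cjg g (sSup S) = _ from (Subgroup.gc_map_comap _).l_sSup]
        refine iSup₂_le ?_
        rintro _ ⟨j, rfl⟩
        exact le_sSup ⟨j + 1, show cjg (g ^ (j + 1)) U = cjg g (cjg (g ^ j) U) by rw [cjg_mul, ← pow_succ']⟩
      exact fun a ha => this ⟨a, ha, rfl⟩
    have hUS : U ≤ sSup S := le_sSup ⟨0, by simp only [pow_zero, cjg_one]⟩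
    have hSK : sSup S ≤ K := sSup_le (by rintro _ ⟨j, rfl⟩; exact hUjK j)
    have := hWmax (show Pw (sSup S) from ⟨⟨hlarge, habel⟩, hWK.trans (hWU.le.trans hUS), hSK, hTS, hgS⟩)
      (hWU.le.trans hUS)
    exact hWU.not_ge (hUS.trans this)
  push Not at hcomm
  obtain ⟨j, hj⟩ := hcomm
  set h := g ^ j with hh
  have hpj : ¬ p ∣ j := by
    rintro ⟨k, rfl⟩
    apply hj
    have : h ∈ T := by rw [hh, pow_mul]; exact T.pow_mem hgp k
    rw [cjg_eq_of_mem (hTU this)]
    exact hU.2
  have hhB : h ∈ B := B.pow_mem hgB j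
  set U' := cjg h U with hU'
  have hTU' : T ≤ Subgroup.normalizer (U' : Set G) := normalizer_cjg (hpowT j) hTU
  have hminU : ∀ X : Subgroup G, AbLarge X → W < X → X ≤ U → T ≤ Subgroup.normalizer (X : Set G) → X = U :=
    fun X h1 h2 h3 h4 => le_antisymm h3 (hUmin ⟨h1, h2, h3.trans hUZ, h4⟩ h3)
  have hWU' : W ≤ U' := (hpowW j).ge.trans (cjg_mono hWU.le)
  have hminU' : ∀ X : Subgroup G, AbLarge X → W < X → X ≤ U' → T ≤ Subgroup.normalizer (X : Set G) → X = U' := by
    intro X h1 h2 h3 h4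
    have hinv : h⁻¹ ∈ Subgroup.normalizer (T : Set G) := Subgroup.inv_mem _ (hpowT j)
    have e : cjg h⁻¹ X = U := by
      refine hminU _ ⟨cjg_large _ h1.1, cjg_isMulCommutative _ h1.2⟩ ?_ ?_ (normalizer_cjg hinv h4)
      · have hW' : cjg h⁻¹ W = W := cjg_eq_of_mem (Subgroup.inv_mem _ (Subgroup.pow_mem _ hgW j))
        rw [← hW']
        refine lt_of_le_of_ne (cjg_mono h2.le) fun e => h2.ne ?_
        have := congrArg (cjg h) e
        simpa only [cjg_mul, mul_inv_cancel, cjg_one] using this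
      · refine (cjg_mono h3).trans ?_
        rw [hU', cjg_mul, inv_mul_cancel, cjg_one]
    rw [hU', ← e, cjg_mul, mul_inv_cancel, cjg_one]
  have hU'ab : AbLarge U' := ⟨cjg_large _ hU.1, cjg_isMulCommutative _ hU.2⟩
  have hab_sub : ∀ {X Y : Subgroup G}, AbLarge Y → Cfsg.IsCentralizerLarge X → AbLarge (Y ⊓ X) :=
    fun {X Y} hY hX => ⟨(large_lattice hY.1 hX).2.1, inf_le_left.trans (hY.2.trans (centralizer_anti inf_le_left))⟩
  have hWcU : W ≤ Subgroup.centralizer (U : Set G) := hWU.le.trans hU.2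
  have hWcU' : W ≤ Subgroup.centralizer (U' : Set G) := hWU'.trans hU'ab.2
  have hiso : U' ⊓ Subgroup.centralizer (U : Set G) = W := by
    rcases (le_inf hWU' hWcU).eq_or_lt with e | e
    · exact e.symm
    · exfalso
      have := hminU' _ (hab_sub hU'ab (large_centralizer hU.1).1) e inf_le_left
        ((le_inf hTU' (hTU.trans (normalizer_centralizer U))).trans (normalizer_inf _ _))
      exact hj (this.ge.trans inf_le_right)
  have hiso' : U ⊓ Subgroup.centralizer (U' : Set G) = W := by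
    rcases (le_inf hWU.le hWcU').eq_or_lt with e | e
    · exact e.symm
    · exfalso
      have := hminU _ (hab_sub hU (large_centralizer hU'ab.1).1) e inf_le_left
        ((le_inf hTU (hTU'.trans (normalizer_centralizer U'))).trans (normalizer_inf _ _))
      exact hj (Subgroup.le_centralizer_iff.1 (this.ge.trans inf_le_right))
  have hUU' : U ⊓ U' = W :=
    le_antisymm ((inf_le_inf_left U hU'ab.2).trans hiso'.le) (le_inf hWU.le hWU')
  set E := U ⊔ U' with hE
  have hEgen : U' ≤ U ⊔ (B ⊓ E) := hyperbolic_le hB hU hhB (hiso.le.trans hWU.le)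
  -- `E` is normalized by `h`
  have hfix : ∀ b ∈ B ⊓ E, h * b * h⁻¹ = b := fun b hb => conj_fix hB.ab hhB hb.1
  have hhE : h ∈ Subgroup.normalizer (E : Set G) := by
    refine mem_normalizer_of_conj_mem fun a ha => ?_
    have : cjg h E ≤ E := by
      rw [hE, cjg_sup, ← hU']
      refine sup_le le_sup_right ?_
      refine (cjg_mono hEgen).trans ?_
      rw [cjg_sup, ← hU']
      refine sup_le le_sup_right ?_
      rintro _ ⟨b, hb, rfl⟩
      show h * b * h⁻¹ ∈ _
      rw [hfix b hb]; exact hb.2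
    exact this ⟨a, ha, rfl⟩
  -- `E` has class at most two
  have hnU : U ≤ Subgroup.normalizer (U' : Set G) := hUK.trans (hKT.trans hTU')
  have hnU' : U' ≤ Subgroup.normalizer (U : Set G) := (hUjK j).trans (hKT.trans hTU)
  have hWcE : W ≤ Subgroup.centralizer (E : Set G) := by
    rw [hE, centralizer_sup]; exact le_inf hWcU hWcU'
  have hEC : E ⊓ Subgroup.centralizer (E : Set G) ≤ W := by
    rintro a ⟨haE, haC⟩
    rw [hE, centralizer_sup] at haC
    obtain ⟨u, hu, v, hv, rfl⟩ := sup_mul_subset (large_lattice hU.1 hU'ab.1).2.2.1 haE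
    have hvW : v ∈ W := hiso.le ⟨hv, by
      have := Subgroup.mul_mem _ (Subgroup.inv_mem _ (hU.2 hu)) haC.1
      rwa [inv_mul_cancel_left] at this⟩
    refine W.mul_mem (hiso'.le ⟨hu, ?_⟩) hvW
    have := Subgroup.mul_mem _ haC.2 (Subgroup.inv_mem _ (hU'ab.2 hv))
    rwa [mul_inv_cancel_right] at this
  set L := (B ⊓ E) ⊔ W with hL
  have hWE : W ≤ E := hWU.le.trans le_sup_left
  have hLab : L ≤ Subgroup.centralizer (L : Set G) := by
    rw [hL, centralizer_sup]
    refine sup_le (le_inf ?_ (Subgroup.le_centralizer_iff.1 (hWcE.trans (centralizer_anti inf_le_right))))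
      (le_inf (hWcE.trans (centralizer_anti inf_le_right)) hW.2)
    exact inf_le_left.trans (hB.ab.trans (centralizer_anti inf_le_left))
  have hLU : L ⊔ U = E := by
    refine le_antisymm (sup_le (sup_le inf_le_right hWE) le_sup_left) (sup_le le_sup_right ?_)
    exact hEgen.trans (sup_le le_sup_right (le_sup_left.trans le_sup_left))
  have hLset : ((L : Subgroup G) : Set G) = ((B ⊓ E : Subgroup G) : Set G) * (W : Set G) :=
    (Subgroup.coe_mul_of_right_le_normalizer_left (B ⊓ E) W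
      ((hWcE.trans (centralizer_anti inf_le_right)).trans (Subgroup.centralizer_le_normalizer _)))
  have hLiU : L ⊓ U = W := by
    refine le_antisymm ?_ (le_inf le_sup_right hWU.le)
    rintro a ⟨haL, haU⟩
    have ha' : a ∈ ((L : Subgroup G) : Set G) := haL
    rw [hLset] at ha'
    obtain ⟨b, hb, w, hw, rfl⟩ := ha'
    have hbU : b ∈ U := by
      have := U.mul_mem haU (U.inv_mem (hWU.le hw))
      rwa [mul_inv_cancel_right] at this
    exact W.mul_mem (hUU'.le ⟨hbU, b, hbU, hfix b hb⟩) hw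
  have hLne : L ≠ U' := by
    intro e
    have hfixL : cjg h L = L := by
      refine le_antisymm ?_ ?_
      · rw [hL, cjg_sup, hpowW j]
        refine sup_le_sup_right ?_ W
        rintro _ ⟨b, hb, rfl⟩
        show h * b * h⁻¹ ∈ _
        rw [hfix b hb]; exact hb
      · rw [hL, cjg_sup, hpowW j]
        exact sup_le_sup_right (fun b hb => ⟨b, hb, hfix b hb⟩) W
    have : U' = U := by
      have h2 : cjg h U' = cjg h U := by rw [← e, hfixL, e, hU']
      exact Subgroup.map_injective (MulAut.conj h).injective h2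
    exact hWU.ne (hUU' ▸ by rw [this, inf_idem])
  -- count the abelian complements
  let Pc : Subgroup G → Prop := fun X => IsMulCommutative X ∧ X ⊓ U = W ∧ X ⊔ U = E
  have hUle : U ≤ E := le_sup_left
  have hU'le : U' ≤ E := le_sup_right
  have hdvd : p ∣ Nat.card {X : Subgroup G // Pc X} := by
    have hWc : W.subgroupOf E ≤ Subgroup.center E := by
      intro w hw
      rw [Subgroup.mem_center_iff]
      exact fun a => Subtype.ext (Subgroup.mem_centralizer_iff.1 (hWcE hw) a a.2)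
    have hEcomm : ∀ a b : E, ⁅a, b⁆ ∈ W.subgroupOf E := by
      have hgens : ∀ x ∈ (U : Set G) ∪ (U' : Set G), ∀ y ∈ (U : Set G) ∪ (U' : Set G), ⁅x, y⁆ ∈ W := by
        have hcr : ∀ x ∈ U, ∀ y ∈ U', ⁅x, y⁆ ∈ W := by
          intro x hx y hy
          refine hUU'.le ⟨?_, ?_⟩
          · have := U.mul_mem hx ((Subgroup.mem_normalizer_iff.1 (hnU' hy) x⁻¹).1 (U.inv_mem hx))
            simpa [commutatorElement_def, mul_assoc] using this
          · have := U'.mul_mem ((Subgroup.mem_normalizer_iff.1 (hnU hx) y).1 hy) (U'.inv_mem hy)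
            simpa [commutatorElement_def, mul_assoc] using this
        rintro x (hx | hx) y (hy | hy)
        · rw [commutatorElement_eq_one_iff_mul_comm.2 (Subgroup.mem_centralizer_iff.1 (hU.2 hy) x hx)]
          exact one_mem W
        · exact hcr x hx y hy
        · rw [← commutatorElement_inv]; exact inv_mem (hcr y hy x hx)
        · rw [commutatorElement_eq_one_iff_mul_comm.2 (Subgroup.mem_centralizer_iff.1 (hU'ab.2 hy) x hx)]
          exact one_mem W
      haveI : (W.subgroupOf E).Normal := ⟨fun n hn a => by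
        rw [Subgroup.mem_center_iff.1 (hWc hn) a, mul_inv_cancel_right]; exact hn⟩
      let π := QuotientGroup.mk' (W.subgroupOf E)
      have hEgen' : E = Subgroup.closure ((U : Set G) ∪ (U' : Set G)) := by
        rw [hE, Subgroup.closure_union, Subgroup.closure_eq, Subgroup.closure_eq]
      have key : ∀ a : G, ∀ ha : a ∈ E, ∀ y ∈ (U : Set G) ∪ (U' : Set G), ∀ hy : y ∈ E,
          Commute (π ⟨a, ha⟩) (π ⟨y, hy⟩) := by
        intro a ha
        have ha' : a ∈ Subgroup.closure ((U : Set G) ∪ (U' : Set G)) := hEgen' ▸ ha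
        revert ha
        induction ha' using Subgroup.closure_induction with
        | mem x hx =>
          intro hxE y hy hyE
          rw [Commute, SemiconjBy, ← commutatorElement_eq_one_iff_mul_comm, ← map_commutatorElement]
          exact (QuotientGroup.eq_one_iff _).2 (hgens x hx y hy)
        | one =>
          intro h1 y _ hy
          rw [show (⟨1, h1⟩ : E) = 1 from rfl, map_one]
          exact Commute.one_left _
        | mul x z hx hz ihx ihz =>
          intro h1 y hy hyE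
          have hxE : x ∈ E := hEgen'.ge hx
          have hzE : z ∈ E := hEgen'.ge hz
          rw [show (⟨x * z, h1⟩ : E) = ⟨x, hxE⟩ * ⟨z, hzE⟩ from rfl, map_mul]
          exact (ihx hxE y hy hyE).mul_left (ihz hzE y hy hyE)
        | inv x hx ihx =>
          intro h1 y hy hyE
          have hxE : x ∈ E := hEgen'.ge hx
          rw [show (⟨x⁻¹, h1⟩ : E) = ⟨x, hxE⟩⁻¹ from rfl, map_inv]
          exact (ihx hxE y hy hyE).inv_left
      intro a b
      have : Commute (π a) (π b) := by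
        obtain ⟨b, hb⟩ := b
        have hb' : b ∈ Subgroup.closure ((U : Set G) ∪ (U' : Set G)) := hEgen' ▸ hb
        revert hb
        induction hb' using Subgroup.closure_induction with
        | mem x hx => intro hxE; exact key a.1 a.2 x hx hxE
        | one =>
          intro h1
          rw [show (⟨1, h1⟩ : E) = 1 from rfl, map_one]
          exact Commute.one_right _
        | mul x z hx hz ihx ihz =>
          intro h1
          rw [show (⟨x * z, h1⟩ : E) = ⟨x, hEgen'.ge hx⟩ * ⟨z, hEgen'.ge hz⟩ from rfl, map_mul]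
          exact (ihx _).mul_right (ihz _)
        | inv x hx ihx =>
          intro h1
          rw [show (⟨x⁻¹, h1⟩ : E) = ⟨x, hEgen'.ge hx⟩⁻¹ from rfl, map_inv]
          exact (ihx _).inv_right
      exact (QuotientGroup.eq_one_iff _).1
        ((map_commutatorElement π a b).trans (commutatorElement_eq_one_iff_mul_comm.2 this.eq))
    have hsub : ∀ X : Subgroup G, X ≤ E → Pc X →
        IsMulCommutative ↥(X.subgroupOf E) ∧ X.subgroupOf E ⊓ U.subgroupOf E = W.subgroupOf E ∧
          X.subgroupOf E ⊔ U.subgroupOf E = ⊤ := by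
      rintro X hXE ⟨ha, hi, hs⟩
      refine ⟨⟨⟨fun a b => Subtype.ext (Subtype.ext ?_)⟩⟩, ?_, ?_⟩
      · simpa using congrArg Subtype.val (ha.is_comm.comm (⟨(a : E).1, a.2⟩ : X) (⟨(b : E).1, b.2⟩ : X))
      · rw [← hi]; rfl
      · rw [← Subgroup.subgroupOf_sup hXE hUle, hs, Subgroup.subgroupOf_self]
    have hPcU' : Pc U' := ⟨Subgroup.le_centralizer_iff_isMulCommutative.1 hU'ab.2,
      by rw [inf_comm]; exact hUU', sup_comm U' U⟩
    have hPcL : Pc L := ⟨Subgroup.le_centralizer_iff_isMulCommutative.1 hLab, hLiU, hLU⟩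
    have hne : L.subgroupOf E ≠ U'.subgroupOf E := by
      intro e
      apply hLne
      have hLE : L ≤ E := hLU ▸ le_sup_left
      rw [← Subgroup.map_subgroupOf_eq_of_le hLE, e, Subgroup.map_subgroupOf_eq_of_le hU'le]
    have hUp : IsPGroup p ↥(U.subgroupOf E) := (hP.to_subgroup _).to_subgroup _
    have hUcomm : IsMulCommutative ↥(U.subgroupOf E) := ⟨⟨fun a b => Subtype.ext (Subtype.ext
      (Subgroup.mem_centralizer_iff.1 (hU.2 b.2) (a : E).1 a.2))⟩⟩
    have hdv := prime_dvd_card_complements hWc hEcomm hUp hUcomm (hsub U' hU'le hPcU') (hsub L (hLU ▸ le_sup_left) hPcL) hne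
    refine hdv.trans (dvd_of_eq (Nat.card_congr ?_))
    exact
      { toFun := fun X => ⟨X.1.map E.subtype, by
          obtain ⟨ha, hi, hs⟩ := X.2
          refine ⟨?_, ?_, ?_⟩
          · haveI := ha; infer_instance
          · have := congrArg (Subgroup.map E.subtype) hi
            rwa [Subgroup.map_inf _ _ _ E.subtype_injective, Subgroup.map_subgroupOf_eq_of_le hUle,
              Subgroup.map_subgroupOf_eq_of_le hWE] at this
          · have := congrArg (Subgroup.map E.subtype) hs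
            rwa [Subgroup.map_sup, Subgroup.map_subgroupOf_eq_of_le hUle, ← MonoidHom.range_eq_map,
              Subgroup.range_subtype] at this⟩
        invFun := fun X => ⟨X.1.subgroupOf E, hsub X.1 (X.2.2.2 ▸ le_sup_left) X.2⟩
        left_inv := fun X => Subtype.ext (Subgroup.comap_map_eq_self_of_injective E.subtype_injective X.1)
        right_inv := fun X => Subtype.ext (Subgroup.map_subgroupOf_eq_of_le (X.2.2.2 ▸ le_sup_left)) }
  -- the fixed members
  have hTE : T ≤ Subgroup.normalizer (E : Set G) := (le_inf hTU hTU').trans (normalizer_sup _ _)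
  have hmod := card_modEq_card_normalized (p := p) (hP.to_subgroup T) Pc (fun t ht X hX => by
    refine ⟨?_, ?_, ?_⟩
    · exact Subgroup.le_centralizer_iff_isMulCommutative.1
        (cjg_isMulCommutative t (Subgroup.le_centralizer_iff_isMulCommutative.2 hX.1))
    · show cjg t X ⊓ U = W
      rw [← cjg_eq_of_mem (hTU ht), ← cjg_inf, hX.2.1, cjg_eq_of_mem (hTW ht)]
    · show cjg t X ⊔ U = E
      rw [← cjg_eq_of_mem (hTU ht), ← cjg_sup, hX.2.2, cjg_eq_of_mem (hTE ht)])
  let Pf : Subgroup G → Prop := fun X => X ≤ Subgroup.centralizer (X : Set G) ∧ W ≤ X ∧ X ≤ E ∧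
    Nat.card X = Nat.card U ∧ T ≤ Subgroup.normalizer (X : Set G)
  have hEcard : Nat.card E * Nat.card W = Nat.card U * Nat.card U := by
    have := natCard_setMul_mul_inf U U'
    rw [← (large_lattice hU.1 hU'ab.1).2.2.1, hUU', show Nat.card U' = Nat.card U from card_cjg h U] at this
    exact this
  have hlargeF : ∀ X : Subgroup G, Pf X → AbLarge X := by
    rintro X ⟨hXab, hWX, hXE, hXc, -⟩
    refine ⟨isLarge_of_le ?_, hXab⟩
    have hEl := (large_lattice hU.1 hU'ab.1).1
    have hXD : X ⊔ Subgroup.centralizer (E : Set G) ≤ Subgroup.centralizer (X : Set G) :=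
      sup_le hXab (centralizer_anti hXE)
    have h1 := card_mul_card_le_sup X (Subgroup.centralizer (E : Set G))
    have h2 : Nat.card ↥(X ⊓ Subgroup.centralizer (E : Set G)) ≤ Nat.card W :=
      Subgroup.card_le_of_le (le_trans (inf_le_inf_right _ hXE) hEC)
    have h3 := Subgroup.card_le_of_le hXD
    rw [← hEl, meas]
    refine Nat.le_of_mul_le_mul_right (c := Nat.card W) ?_ Nat.card_pos
    calc Nat.card E * Nat.card ↥(Subgroup.centralizer (E : Set G)) * Nat.card W
        = Nat.card X * (Nat.card X * Nat.card ↥(Subgroup.centralizer (E : Set G))) := by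
          rw [hXc]; linear_combination (Nat.card ↥(Subgroup.centralizer (E : Set G))) * hEcard
      _ ≤ Nat.card X * (Nat.card ↥(Subgroup.centralizer (X : Set G)) * Nat.card W) :=
          Nat.mul_le_mul_left _ (h1.trans (Nat.mul_le_mul h3 h2))
      _ = _ := by ring
  have hcases : ∀ X : Subgroup G, Pf X → X ≠ U → Pc X := by
    intro X hX hne
    have hXl := hlargeF X hX
    obtain ⟨hXab, hWX, hXE, hXc, hTX⟩ := hX
    have hmeet : X ⊓ U = W := by
      rcases (le_inf hWX hWU.le).eq_or_lt with e | e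
      · exact e.symm
      · exfalso
        have := hminU _ (hab_sub hXl hU.1) e inf_le_right ((le_inf hTX hTU).trans (normalizer_inf _ _))
        exact hne (Subgroup.eq_of_le_of_card_ge (this.ge.trans inf_le_left) hXc.le).symm
    refine ⟨Subgroup.le_centralizer_iff_isMulCommutative.1 hXab, hmeet, ?_⟩
    refine Subgroup.eq_of_le_of_card_ge (sup_le hXE hUle) ?_
    refine Nat.le_of_mul_le_mul_right (c := Nat.card W) ?_ Nat.card_pos
    have := card_mul_card_le_sup X U
    rw [hmeet, hXc] at this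
    exact hEcard.le.trans this
  have hcardF : Nat.card {X : Subgroup G // Pf X} =
      Nat.card {X : Subgroup G // Pc X ∧ T ≤ Subgroup.normalizer (X : Set G)} + 1 := by
    have e1 : {X : Subgroup G | Pf X} = insert U {X | Pc X ∧ T ≤ Subgroup.normalizer (X : Set G)} := by
      ext X
      constructor
      · intro hX
        rcases eq_or_ne X U with e | e
        · exact Or.inl e
        · exact Or.inr ⟨hcases X hX e, hX.2.2.2.2⟩
      · rintro (rfl | ⟨⟨ha, hi, hs⟩, hTX⟩)
        · exact ⟨hU.2, hWU.le, hUle, rfl, hTU⟩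
        · have hXE : X ≤ E := hs ▸ le_sup_left
          refine ⟨Subgroup.le_centralizer_iff_isMulCommutative.2 ha, hi ▸ inf_le_left, hXE, ?_, hTX⟩
          have hn : X ≤ Subgroup.normalizer (U : Set G) :=
            hXE.trans ((sup_le Subgroup.le_normalizer hnU'))
          have hset : ((X ⊔ U : Subgroup G) : Set G) = (X : Set G) * (U : Set G) :=
            (Subgroup.coe_mul_of_left_le_normalizer_right X U hn)
          have := natCard_setMul_mul_inf X U
          rw [← hset, hi, hs] at this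
          refine Nat.eq_of_mul_eq_mul_right (Nat.card_pos (α := U)) ?_
          rw [← this]; exact hEcard
    show Nat.card {X : Subgroup G | Pf X} = _
    rw [e1, Nat.card_coe_set_eq, Set.ncard_insert_of_notMem]
    · rfl
    · rintro ⟨⟨-, hi, -⟩, -⟩
      exact hWU.ne (by rw [← hi, inf_idem])
  have hhT : h ∈ Subgroup.normalizer (T : Set G) := hpowT j
  have hzinv : ∀ t ∈ Subgroup.zpowers h, ∀ X, Pf X → Pf (X.map (MulAut.conj t).toMonoidHom) := by
    intro t ht X hX
    have hzp : ∀ S : Subgroup G, h ∈ Subgroup.normalizer (S : Set G) → t ∈ Subgroup.normalizer (S : Set G) :=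
      fun S hS => (Subgroup.zpowers_le.2 hS) ht
    refine ⟨cjg_isMulCommutative t hX.1, ?_, ?_, (card_cjg t X).trans hX.2.2.2.1, normalizer_cjg (hzp T hhT) hX.2.2.2.2⟩
    · exact (cjg_eq_of_mem (hzp W (Subgroup.pow_mem _ hgW j))).ge.trans (cjg_mono hX.2.1)
    · exact (cjg_mono hX.2.2.1).trans (cjg_eq_of_mem (hzp E hhE)).le
  have hmodh := card_modEq_card_normalized (p := p) (hP.to_subgroup (Subgroup.zpowers h)) Pf hzinv
  have hne0 : Nat.card {X : Subgroup G // Pf X ∧ Subgroup.zpowers h ≤ Subgroup.normalizer (X : Set G)} ≠ 0 := by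
    intro h0
    rw [h0, hcardF] at hmodh
    have hfix0 : Nat.card {X : Subgroup G // Pc X ∧ T ≤ Subgroup.normalizer (X : Set G)} ≡ 0 [MOD p] :=
      hmod.symm.trans (Nat.modEq_zero_iff_dvd.2 hdvd)
    have h1 := (hfix0.add_right 1).symm.trans hmodh
    exact (Fact.out : p.Prime).not_dvd_one (Nat.modEq_zero_iff_dvd.1 h1)
  obtain ⟨⟨X, hX, hhX⟩⟩ := (Nat.card_ne_zero.1 hne0).1
  have hgX : g ∈ Subgroup.normalizer (X : Set G) := by
    refine hhX ?_
    obtain ⟨n, hn⟩ := IsPGroup.iff_card.1 (hP.to_subgroup (Subgroup.zpowers g))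
    rw [Nat.card_zpowers] at hn
    have hco : Nat.Coprime j (orderOf g) :=
      hn ▸ Nat.Coprime.pow_right n ((Fact.out : p.Prime).coprime_iff_not_dvd.2 hpj).symm
    obtain ⟨k, hk⟩ := exists_pow_eq_self_of_coprime hco
    rw [← hk]
    exact Subgroup.pow_mem _ (Subgroup.mem_zpowers h) k
  have hXl := hlargeF X hX
  have hXK : X ≤ K := hX.2.2.1.trans (sup_le hUK (hUjK j))
  have := hWmax (show Pw X from ⟨hXl, hWK.trans hX.2.1, hXK, hX.2.2.2.2, hgX⟩) hX.2.1
  have hXW : X = W := le_antisymm this hX.2.1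
  have hc := hX.2.2.2.1
  rw [hXW] at hc
  exact hWU.ne (Subgroup.eq_of_le_of_card_ge hWU.le hc.ge)

/-- Adjoining a whole abelian generator. -/
theorem extend_subgroup (hP : IsPGroup p G) {K Q B : Subgroup G}
    (hKL : Cfsg.IsCentrallyLarge K) (hB : IsReplGen B) (hBK : B ≤ Subgroup.normalizer (K : Set G))
    (hQ : Cfsg.IsMinimalCentrallyLarge Q) (hQK : Q ≤ K) (hKQ : K ≤ Subgroup.normalizer (Q : Set G)) :
    ∃ R : Subgroup G, Cfsg.IsMinimalCentrallyLarge R ∧ R ≤ K ∧ K ⊔ B ≤ Subgroup.normalizer (R : Set G) := by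
  obtain ⟨B0, ⟨hB0, R, hR, hRK, hKR⟩, hmax⟩ := (Set.toFinite {S : Subgroup G | S ≤ B ∧ ∃ R : Subgroup G,
      Cfsg.IsMinimalCentrallyLarge R ∧ R ≤ K ∧ K ⊔ S ≤ Subgroup.normalizer (R : Set G)}).exists_maximal
    ⟨⊥, bot_le, Q, hQ, hQK, by rwa [sup_bot_eq]⟩
  rcases hB0.eq_or_lt with e | e
  · exact ⟨R, hR, hRK, e ▸ hKR⟩
  exfalso
  obtain ⟨b, hb, hb0⟩ := SetLike.exists_of_lt e
  classical
  have hex : ∃ k : ℕ, b ^ p ^ k ∈ B0 := by
    obtain ⟨k, hk⟩ := hP b
    exact ⟨k, hk ▸ B0.one_mem⟩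
  set k := Nat.find hex with hk
  have hk0 : k ≠ 0 := fun e => hb0 (by
    have h := Nat.find_spec hex
    rw [← hk, e] at h
    simpa using h)
  set g := b ^ p ^ (k - 1) with hg
  have hg0 : g ∉ B0 := Nat.find_min hex (by omega)
  have hgB : g ∈ B := B.pow_mem hb _
  have hgp : g ^ p ∈ B0 := by
    rw [hg, ← pow_mul, ← pow_succ, Nat.sub_add_cancel (Nat.one_le_iff_ne_zero.2 hk0)]
    exact Nat.find_spec hex
  have hgB0 : g ∈ Subgroup.normalizer (B0 : Set G) :=
    mem_normalizer_of_conj_mem fun a ha => by rw [conj_fix hB.ab hgB (hB0 ha)]; exact ha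
  obtain ⟨R', hR', hR'K, hTR', hgR'⟩ := extend_element hP (T := K ⊔ B0) (g := g) hKL le_sup_left
    (sup_le Subgroup.le_normalizer (hB0.trans hBK)) (hBK hgB)
    ((normalizer_sup K B0) ⟨hBK hgB, hgB0⟩) hB hgB (Subgroup.mem_sup_right hgp) hR hKR
  have := hmax ⟨sup_le hB0 (Subgroup.zpowers_le.2 hgB), R', hR', hR'K, by
    rw [← sup_assoc]; exact sup_le hTR' (Subgroup.zpowers_le.2 hgR')⟩ (le_sup_left : B0 ≤ B0 ⊔ Subgroup.zpowers g)
  exact hg0 (this (Subgroup.mem_sup_right (Subgroup.mem_zpowers g)))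

/-- Glauberman: some minimal centrally large subgroup is normalized by `J(P)` and by `P_MCL`. -/
theorem exists_minimal_normalized (hP : IsPGroup p G) :
    ∃ Q : Subgroup G, Cfsg.IsMinimalCentrallyLarge Q ∧
      Cfsg.minimalCentrallyLargeJoin G ⊔ Cfsg.thompsonSubgroupA G ≤ Subgroup.normalizer (Q : Set G) := by
  let S : Set (Subgroup G) := {X | Cfsg.IsMinimalCentrallyLarge X ∨ X ∈ Cfsg.maxAbelianSubgroups G}
  let gen : Subgroup G → Subgroup G := fun K => sSup {X | X ∈ S ∧ X ≤ K}
  have hgen_le : ∀ K, gen K ≤ K := fun K => sSup_le fun X hX => hX.2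
  let 𝒦 : Set (Subgroup G) := {K | gen K = K ∧ ∃ Q ≤ K, Cfsg.IsMinimalCentrallyLarge Q}
  have hCL : ∀ K ∈ 𝒦, Cfsg.IsCentrallyLarge K := by
    rintro K ⟨hK, Q, hQK, hQ⟩
    have : K = sSup ((fun X => Q ⊔ X) '' {X | X ∈ S ∧ X ≤ K}) := by
      refine le_antisymm (hK.ge.trans (sSup_le fun X hX => le_sup_right.trans (le_sSup ⟨X, hX, rfl⟩))) (sSup_le ?_)
      rintro _ ⟨X, hX, rfl⟩
      exact sup_le hQK hX.2
    rw [this]
    refine centrallyLarge_sSup ⟨_, ⟨Q, ⟨Or.inl hQ, hQK⟩, rfl⟩⟩ ?_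
    rintro _ ⟨X, ⟨hX | hX, -⟩, rfl⟩
    · exact centrallyLarge_sup hQ.1 hX.1
    · exact (centrallyLarge_sup_maxAbelian hQ.1 hX).1
  suffices H : ∀ K ∈ 𝒦, ∃ Q : Subgroup G, Cfsg.IsMinimalCentrallyLarge Q ∧ Q ≤ K ∧ K ≤ Subgroup.normalizer (Q : Set G) by
    obtain ⟨Q0, hQ0⟩ := exists_minimalCentrallyLarge (G := G)
    obtain ⟨Q, hQ, -, hN⟩ := H (Cfsg.minimalCentrallyLargeJoin G ⊔ Cfsg.thompsonSubgroupA G)
      ⟨le_antisymm (hgen_le _) (sup_le
        (sSup_le fun X hX => le_sSup ⟨Or.inl hX, (le_sSup hX).trans le_sup_left⟩)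
        (sSup_le fun X hX => le_sSup ⟨Or.inr hX, (le_sSup hX).trans le_sup_right⟩)),
        Q0, (le_sSup (show Q0 ∈ {R : Subgroup G | Cfsg.IsMinimalCentrallyLarge R} from hQ0)).trans le_sup_left, hQ0⟩
    exact ⟨Q, hQ, hN⟩
  intro K hK
  by_contra hbad
  obtain ⟨K, ⟨hK, hbad⟩, hmin⟩ := (Set.toFinite {K : Subgroup G | K ∈ 𝒦 ∧ ¬ ∃ Q : Subgroup G,
    Cfsg.IsMinimalCentrallyLarge Q ∧ Q ≤ K ∧ K ≤ Subgroup.normalizer (Q : Set G)}).exists_minimal ⟨K, hK, hbad⟩
  obtain ⟨hKgen, Q0, hQ0K, hQ0⟩ := hK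
  have hself : ∀ X ∈ S, gen X = X := fun X hX => le_antisymm (hgen_le X) (le_sSup ⟨hX, le_rfl⟩)
  rcases hQ0K.eq_or_lt with e | e
  · exact hbad ⟨Q0, hQ0, hQ0K, e ▸ Subgroup.le_normalizer⟩
  obtain ⟨K', ⟨hK', hK'lt⟩, hmax⟩ := (Set.toFinite {X : Subgroup G | X ∈ 𝒦 ∧ X < K}).exists_maximal
    ⟨Q0, ⟨hself Q0 (Or.inl hQ0), Q0, le_rfl, hQ0⟩, e⟩
  have hK'n : K ≤ Subgroup.normalizer (K' : Set G) := by
    -- `K'` is generated by the generators inside a normal maximal subgroup
    haveI : Group.IsNilpotent K := (hP.to_subgroup K).isNilpotent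
    have hne : K'.subgroupOf K ≠ ⊤ := fun e => hK'lt.not_ge (Subgroup.subgroupOf_eq_top.1 e)
    obtain ⟨M, hM, hK'M⟩ := (eq_top_or_exists_le_coatom (K'.subgroupOf K)).resolve_left hne
    haveI := Subgroup.NormalizerCondition.normal_of_coatom M Group.normalizerCondition_of_isNilpotent hM
    set M' := M.map K.subtype with hM'
    have hK'M' : K' ≤ M' := by
      rw [← Subgroup.map_subgroupOf_eq_of_le hK'lt.le]; exact Subgroup.map_mono hK'M
    have hgenM : gen M' ∈ 𝒦 := by
      refine ⟨le_antisymm (hgen_le _) (sSup_le fun X hX => le_sSup ⟨hX.1, le_sSup hX⟩), ?_⟩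
      obtain ⟨Q, hQ, hQm⟩ := hK'.2
      exact ⟨Q, le_sSup ⟨Or.inl hQm, hQ.trans hK'M'⟩, hQm⟩
    have hK'le : K' ≤ gen M' := hK'.1.ge.trans (sSup_le fun X hX => le_sSup ⟨hX.1, hX.2.trans hK'M'⟩)
    have hMlt : M' < K := by
      refine lt_of_le_of_ne (Subgroup.map_subtype_le M) fun e => hM.1 ?_
      rw [← Subgroup.comap_map_eq_self_of_injective K.subtype_injective M, ← hM', e]
      exact Subgroup.subgroupOf_self K
    have heq : gen M' = K' := le_antisymm (hmax ⟨hgenM, (hgen_le _).trans_lt hMlt⟩ hK'le) hK'le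
    intro k hk
    rw [← heq]
    refine mem_normalizer_of_conj_mem fun a ha => ?_
    have : cjg k (gen M') ≤ gen M' := by
      rw [show cjg k (gen M') = _ from (Subgroup.gc_map_comap _).l_sSup]
      refine iSup₂_le fun X hX => le_sSup ⟨?_, ?_⟩
      · rcases hX.1 with h | h
        · exact Or.inl (cjg_minimal k h)
        · exact Or.inr (cjg_maxAbelian k h)
      · rintro _ ⟨x, hx, rfl⟩
        obtain ⟨y, hy, rfl⟩ := hX.2 hx
        exact ⟨⟨k, hk⟩ * y * ⟨k, hk⟩⁻¹, Subgroup.Normal.conj_mem inferInstance y hy _, rfl⟩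
    exact this ⟨a, ha, rfl⟩
  obtain ⟨X, ⟨hXS, hXK⟩, hXn⟩ : ∃ X, (X ∈ S ∧ X ≤ K) ∧ ¬ X ≤ K' := by
    by_contra hc
    push Not at hc
    exact hK'lt.not_ge (hKgen.ge.trans (sSup_le fun X hX => hc X hX))
  have hjoin : K' ⊔ X = K := by
    refine le_antisymm (sup_le hK'lt.le hXK) ?_
    by_contra hne
    have hlt : K' ⊔ X < K := lt_of_le_of_ne (sup_le hK'lt.le hXK) fun e => hne e.ge
    have hmem : K' ⊔ X ∈ 𝒦 := by
      refine ⟨le_antisymm (hgen_le _) (sup_le ?_ (le_sSup ⟨hXS, le_sup_right⟩)), ?_⟩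
      · exact hK'.1.ge.trans (sSup_le fun Y hY => le_sSup ⟨hY.1, hY.2.trans le_sup_left⟩)
      · obtain ⟨Q, hQ, hQm⟩ := hK'.2
        exact ⟨Q, hQ.trans le_sup_left, hQm⟩
    exact hXn (le_sup_right.trans (hmax ⟨hmem, hlt⟩ le_sup_left))
  obtain ⟨Q1, hQ1, hQ1K, hK'Q1⟩ : ∃ Q : Subgroup G, Cfsg.IsMinimalCentrallyLarge Q ∧ Q ≤ K' ∧
      K' ≤ Subgroup.normalizer (Q : Set G) := by
    by_contra h
    exact hK'lt.not_ge (hmin ⟨hK', h⟩ hK'lt.le)
  obtain ⟨B, hB, hBK, hKB⟩ : ∃ B : Subgroup G, IsReplGen B ∧ B ≤ K ∧ K' ⊔ B = K := by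
    rcases hXS with h | h
    · refine ⟨Subgroup.centralizer (X : Set G), Or.inl (abLarge_centralizer h.1),
        (centrallyLarge_iff.1 h.1).2.trans hXK, ?_⟩
      refine le_antisymm (sup_le hK'lt.le ((centrallyLarge_iff.1 h.1).2.trans hXK)) (hjoin.ge.trans ?_)
      refine sup_le le_sup_left ((minimal_eq_inf_sup_cen h hQ1).ge.trans ?_)
      exact sup_le_sup (inf_le_right.trans hQ1K) inf_le_right
    · exact ⟨X, Or.inr h, hXK, hjoin⟩
  obtain ⟨R, hR, hRK, hN⟩ := extend_subgroup hP (hCL K' hK') hB (hBK.trans hK'n) hQ1 hQ1K hK'Q1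
  exact hbad ⟨R, hR, hRK.trans hK'lt.le, hKB ▸ hN⟩

end Cfsg.Agent.LAE62
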